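import Cfsg.Agent.SpecNine.SideH
import Cfsg.Agent.SpecEight.Elements

/-!
The extension of `Ω₈⁻` by its natural module.
-/

set_option autoImplicit false
set_option linter.unusedSectionVars false

namespace CfsgLib.SpecNine

open Matrix QuadraticMap CfsgLib.PrimeGraphBC CfsgLib.Forms CfsgLib.SemiClasses
open scoped Classical

variable {F : Type*} [Field F] [Fintype F]

theorem exists_gram (h2 : (2 : F) ≠ 0) {ι : Type} [Fintype ι] [DecidableEq ι] (Q : QuadraticForm F (ι → F))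
    (hQ : (polarBilin Q).Nondegenerate) : ∃ B : Matrix ι ι F, Bᵀ = B ∧ IsUnit B.det ∧ formQ B = Q := by
  obtain ⟨M, hM⟩ : ∃ M, M = LinearMap.BilinForm.toMatrix' (polarBilin Q) := ⟨_, rfl⟩
  have hval : ∀ u v, u ⬝ᵥ (M *ᵥ v) = polar Q u v := fun u v => by
    rw [← Matrix.toBilin'_apply', hM, Matrix.toBilin'_toMatrix']; rfl
  refine ⟨(2 : F)⁻¹ • M, ?_, ?_, ?_⟩
  · ext i j
    have h1 := hval (Pi.single i 1) (Pi.single j 1)
    have h3 := hval (Pi.single j 1) (Pi.single i 1)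
    rw [polar_comm, ← h1] at h3
    simp at h3
    simp [h3]
  · rw [Matrix.det_smul, isUnit_iff_ne_zero]
    refine mul_ne_zero (pow_ne_zero _ (inv_ne_zero h2)) fun h0 => ?_
    obtain ⟨v, hv0, hv⟩ := Matrix.exists_mulVec_eq_zero_iff.mpr h0
    exact hv0 (polar_ext hQ fun y => by rw [polar_comm, ← hval, hv, dotProduct_zero])
  · ext v
    rw [formQ_apply, Matrix.smul_mulVec, dotProduct_smul, hval, polar_self, nsmul_eq_mul, smul_eq_mul]
    push_cast
    rw [← mul_assoc, inv_mul_cancel₀ h2, one_mul]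

theorem mem_range_ext_iff (h2 : (2 : F) ≠ 0) {p : ℕ} [Fact p.Prime] [CharP F p] {a b : F}
    (hab : ∀ z₁ z₂ : F, z₁ ^ 2 + a * z₁ * z₂ + b * z₂ ^ 2 = 0 → z₁ = 0 ∧ z₂ = 0) (N : ℕ) :
    N ∈ Set.range (orderOf :
        (Multiplicative (((Fin 3 ⊕ Fin 3) ⊕ Fin 2) → F)) ⋊[
          (MulAutMultiplicative (((Fin 3 ⊕ Fin 3) ⊕ Fin 2) → F)).symm.toMonoidHom.comp
           ((DistribMulAction.toAddAut (LinearMap.GeneralLinearGroup F (((Fin 3 ⊕ Fin 3) ⊕ Fin 2) → F))
              (((Fin 3 ⊕ Fin 3) ⊕ Fin 2) → F)).comp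
            (Matrix.GeneralLinearGroup.toLin.toMonoidHom.comp
              ((Cfsg.isometryGroup F (Cfsg.quadFormMinus 3 F a b)).subtype.comp
                (Cfsg.Omega F (Cfsg.quadFormMinus 3 F a b)).subtype)))]
          ↥(Cfsg.Omega F (Cfsg.quadFormMinus 3 F a b)) → ℕ) ↔ SH F p N := by
  obtain ⟨φ, hφ⟩ : ∃ φ, φ = (MulAutMultiplicative (((Fin 3 ⊕ Fin 3) ⊕ Fin 2) → F)).symm.toMonoidHom.comp
           ((DistribMulAction.toAddAut (LinearMap.GeneralLinearGroup F (((Fin 3 ⊕ Fin 3) ⊕ Fin 2) → F))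
              (((Fin 3 ⊕ Fin 3) ⊕ Fin 2) → F)).comp
            (Matrix.GeneralLinearGroup.toLin.toMonoidHom.comp
              ((Cfsg.isometryGroup F (Cfsg.quadFormMinus 3 F a b)).subtype.comp
                (Cfsg.Omega F (Cfsg.quadFormMinus 3 F a b)).subtype))) := ⟨_, rfl⟩
  rw [← hφ]
  have hpp : p.Prime := Fact.out
  have happ : ∀ (g : ↥(Cfsg.Omega F (Cfsg.quadFormMinus 3 F a b))) (v : ((Fin 3 ⊕ Fin 3) ⊕ Fin 2) → F),
      φ g (Multiplicative.ofAdd v) = Multiplicative.ofAdd (g.1.1.1 *ᵥ v) := fun g v => by rw [hφ]; rfl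
  have hpow : ∀ (v : ((Fin 3 ⊕ Fin 3) ⊕ Fin 2) → F) (g : ↥(Cfsg.Omega F (Cfsg.quadFormMinus 3 F a b))) (n : ℕ),
      (⟨Multiplicative.ofAdd v, g⟩ : _ ⋊[φ] _) ^ n =
        ⟨Multiplicative.ofAdd ((∑ i ∈ Finset.range n, g.1.1.1 ^ i) *ᵥ v), g ^ n⟩ := by
    intro v g n
    induction n with
    | zero => refine SemidirectProduct.ext ?_ ?_ <;> simp
    | succ n ih =>
      rw [pow_succ', ih]
      refine SemidirectProduct.ext ?_ ?_
      · rw [SemidirectProduct.mul_left, happ, ← ofAdd_add, Matrix.mulVec_mulVec, Finset.sum_range_succ', pow_zero,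
          Matrix.add_mulVec, Matrix.one_mulVec, add_comm, Finset.mul_sum]
        simp only [pow_succ']
      · rw [SemidirectProduct.mul_right, pow_succ']
  have key : ∀ (v : ((Fin 3 ⊕ Fin 3) ⊕ Fin 2) → F) (g : ↥(Cfsg.Omega F (Cfsg.quadFormMinus 3 F a b))),
      orderOf (⟨Multiplicative.ofAdd v, g⟩ : _ ⋊[φ] _) =
        if (∑ i ∈ Finset.range (orderOf g), g.1.1.1 ^ i) *ᵥ v = 0 then orderOf g else p * orderOf g := by
    intro v g
    obtain ⟨x, hx⟩ : ∃ x : _ ⋊[φ] _, x = ⟨Multiplicative.ofAdd v, g⟩ := ⟨_, rfl⟩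
    rw [← hx]
    have hd : orderOf g ∣ orderOf x := hx ▸ orderOf_map_dvd (SemidirectProduct.rightHom (φ := φ)) _
    have hxk : x ^ orderOf g = SemidirectProduct.inl
        (Multiplicative.ofAdd ((∑ i ∈ Finset.range (orderOf g), g.1.1.1 ^ i) *ᵥ v)) := by
      rw [hx, hpow, pow_orderOf_eq_one]; rfl
    have hg0 : 0 < orderOf g := orderOf_pos g
    split_ifs with h0
    · exact Nat.dvd_antisymm (orderOf_dvd_of_pow_eq_one (by rw [hxk, h0, ofAdd_zero, map_one])) hd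
    · have hp' : orderOf (x ^ orderOf g) = p := by
        refine orderOf_eq_prime ?_ ?_
        · rw [hxk, ← map_pow, ← ofAdd_nsmul, ← Nat.cast_smul_eq_nsmul F, CharP.cast_eq_zero, zero_smul, ofAdd_zero,
            map_one]
        · rw [hxk]
          intro h
          exact h0 (congrArg Multiplicative.toAdd (congrArg SemidirectProduct.left h))
      rw [orderOf_pow_of_dvd hg0.ne' hd] at hp'
      rw [← Nat.div_mul_cancel hd, hp']
  have hQ := nondegenerate_quadMinus (F := F) 3 hab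
  obtain ⟨B, hBs, hBu, hB⟩ := exists_gram h2 _ hQ
  have hB' : pres B = Cfsg.isometryGroup F (Cfsg.quadFormMinus 3 F a b) := by
    rw [← coe_quadMinus, ← hB, pres_eq_isometryGroup h2 hBs]
  have hcard : Fintype.card ((Fin 3 ⊕ Fin 3) ⊕ Fin 2) = 2 * 4 := by simp
  constructor
  · rintro ⟨⟨l, g⟩, rfl⟩
    rw [← ofAdd_toAdd l, key]
    obtain ⟨h, hh⟩ : ∃ h, h = (MulEquiv.subgroupCongr hB'.symm) g.1 := ⟨_, rfl⟩
    have hmem : h ∈ commutator ↥(pres B) := hh ▸ (mem_comm_congr _ _).2 g.2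
    have ho : orderOf h = orderOf g := by rw [hh, MulEquiv.orderOf_eq, Subgroup.orderOf_coe]
    have hv : h.1.1 = g.1.1.1 := by rw [hh]; rfl
    refine ⟨_, inferInstance, inferInstance, B, h, by rw [hcard], hBs, hBu, ?_, hmem, ?_⟩
    · rw [← hasHalf_iff_pl h2 hBs hBu (by norm_num) hcard, hB]
      exact not_hasHalf_quadMinus 3 hab
    · split_ifs with h0
      · exact Or.inl ho
      · refine Or.inr ⟨by rw [ho], fun hz => h0 ?_⟩
        rw [ho, hv] at hz
        rw [hz, Matrix.zero_mulVec]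
  · rintro ⟨ι, _, _, G, h, hc, hGs, hGu, hpl, hmem, hN⟩
    have hc' : Fintype.card ι = 2 * 4 := hc
    obtain ⟨ψ₀, ψ, hψ, hψ₀⟩ : ∃ (ψ₀ : (ι → F) ≃ₗ[F] ((Fin 3 ⊕ Fin 3) ⊕ Fin 2 → F))
        (ψ : Cfsg.isometryGroup F ⇑(formQ G) →* Cfsg.isometryGroup F (Cfsg.quadFormMinus 3 F a b)),
        Function.Injective ψ ∧ ∀ g v, (ψ g).1.1 *ᵥ ψ₀ v = ψ₀ (g.1.1 *ᵥ v) := by
      rw [← coe_quadMinus]
      exact CfsgLib.SpecEight.exists_quadMinus hab (nondegenerate_formQ h2 hGs hGu) hc'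
        (fun h' => hpl ((hasHalf_iff_pl h2 hGs hGu (by norm_num) hc').1 h'))
    obtain ⟨h', hh'⟩ : ∃ h', h' = MulEquiv.subgroupCongr (pres_eq_isometryGroup h2 hGs).symm h := ⟨_, rfl⟩
    have hm' : h' ∈ Cfsg.Omega F ⇑(formQ G) := hh' ▸ (mem_comm_congr _ _).2 hmem
    have hm'' : ψ h' ∈ Cfsg.Omega F (Cfsg.quadFormMinus 3 F a b) := by
      have : (commutator (Cfsg.isometryGroup F ⇑(formQ G))).map ψ ≤
          commutator (Cfsg.isometryGroup F (Cfsg.quadFormMinus 3 F a b)) := by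
        rw [commutator_def, Subgroup.map_commutator, commutator_def]
        exact Subgroup.commutator_mono le_top le_top
      exact this ⟨h', hm', rfl⟩
    obtain ⟨g, hg⟩ : ∃ g : ↥(Cfsg.Omega F (Cfsg.quadFormMinus 3 F a b)), g = ⟨ψ h', hm''⟩ := ⟨_, rfl⟩
    have ho : orderOf g = orderOf h := by
      rw [← Subgroup.orderOf_coe, hg]
      show orderOf (ψ h') = _
      rw [orderOf_injective ψ hψ, hh', MulEquiv.orderOf_eq]
    rcases hN with hN | ⟨hN, hsum⟩
    · refine ⟨⟨Multiplicative.ofAdd 0, g⟩, ?_⟩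
      rw [key, Matrix.mulVec_zero, if_pos rfl, ho, hN]
    · have hpw : ∀ i w, g.1.1.1 ^ i *ᵥ ψ₀ w = ψ₀ (h.1.1 ^ i *ᵥ w) := by
        intro i
        induction i with
        | zero => intro w; simp
        | succ i ih =>
          intro w
          rw [pow_succ', ← Matrix.mulVec_mulVec, ih, pow_succ', ← Matrix.mulVec_mulVec]
          have := hψ₀ h' (h.1.1 ^ i *ᵥ w)
          rw [show h'.1.1 = h.1.1 by rw [hh']; rfl] at this
          rw [hg]
          exact this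
      obtain ⟨w, hw⟩ : ∃ w, (∑ i ∈ Finset.range (orderOf h), h.1.1 ^ i) *ᵥ w ≠ 0 := by
        by_contra hall
        push Not at hall
        exact hsum (Matrix.ext_of_mulVec_single fun i => by rw [hall, Matrix.zero_mulVec])
      refine ⟨⟨Multiplicative.ofAdd (ψ₀ w), g⟩, ?_⟩
      have e : (∑ i ∈ Finset.range (orderOf g), g.1.1.1 ^ i) *ᵥ ψ₀ w =
          ψ₀ ((∑ i ∈ Finset.range (orderOf h), h.1.1 ^ i) *ᵥ w) := by
        rw [ho, Matrix.sum_mulVec, Matrix.sum_mulVec, map_sum]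
        exact Finset.sum_congr rfl fun i _ => hpw i w
      rw [key, e, if_neg (fun h0 => hw ((LinearEquiv.map_eq_zero_iff _).1 h0)), ho, hN]

end CfsgLib.SpecNine
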