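import Cfsg.Agent.SpecNine.SideH
import Cfsg.Agent.Symp.Spectrum

/-!
The bound for element orders without eigenvalue one.
-/

set_option autoImplicit false
set_option linter.unusedSectionVars false

namespace CfsgLib.SpecNine

open Polynomial UniqueFactorizationMonoid CfsgLib.Symp
open scoped Classical

/-- Bounds in weight three without an exponent `q ^ 3 ± 1`. -/
def Mid (q L : ℕ) : Prop :=
  L ∣ Nat.lcm (q ^ 2 + 1) (q ^ 1 + 1) ∨ L ∣ Nat.lcm (q ^ 2 + 1) (q ^ 1 - 1) ∨ L ∣ q ^ 2 - 1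

/-- Bounds in weight four with at least two orbits. -/
def Low (q L : ℕ) : Prop :=
  L ∣ Nat.lcm (q ^ 2 + 1) (q ^ 2 - 1) ∨ L ∣ Nat.lcm (q ^ 3 + 1) (q ^ 1 - 1) ∨ L ∣ Nat.lcm (q ^ 3 - 1) (q ^ 1 + 1)

theorem pow_one_dvd (q : ℕ) : q ^ 1 + 1 ∣ q ^ 2 - 1 ∧ q ^ 1 - 1 ∣ q ^ 2 - 1 ∧ q ^ 1 + 1 ∣ q ^ 3 + 1 ∧
    q ^ 1 - 1 ∣ q ^ 3 - 1 := by
  have e1 : (q + 1) * (q - 1) = q ^ 2 - 1 := by rw [← Nat.sq_sub_sq, one_pow]
  rw [pow_one]
  refine ⟨e1 ▸ dvd_mul_right _ _, e1 ▸ dvd_mul_left _ _, ?_, Nat.sub_one_dvd_pow_sub_one q 3⟩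
  simpa using Odd.nat_add_dvd_pow_add_pow q 1 (show Odd 3 by decide)

/-- Classification of the least common multiple of the exponents. -/
theorem lcm_class {q k : ℕ} {α : Type*} (S : Finset α) (w E : α → ℕ) (same : α → α → Prop)
    (hw : ∀ f ∈ S, 1 ≤ w f ∧ w f ≤ k ∧ (E f = q ^ w f + 1 ∨ E f = q ^ w f - 1))
    (hsame : ∀ f ∈ S, ∀ g ∈ S, same f g → E g = E f)
    (h2 : ∀ f ∈ S, ∀ g ∈ S, ¬ same f g → w f + w g ≤ k)
    (h3 : ∀ f ∈ S, ∀ g ∈ S, ∀ h ∈ S, ¬ same f g → ¬ same f h → ¬ same g h → w f + w g + w h ≤ k) :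
    (k = 1 → S.lcm E ∣ q ^ 1 + 1 ∨ S.lcm E ∣ q ^ 1 - 1) ∧
      (k = 2 → S.lcm E ∣ q ^ 2 + 1 ∨ S.lcm E ∣ q ^ 2 - 1) ∧
      (k = 3 → Mid q (S.lcm E) ∨ ((∃ f ∈ S, w f = 3) ∧ (S.lcm E ∣ q ^ 3 + 1 ∨ S.lcm E ∣ q ^ 3 - 1))) ∧
      (k = 4 → Low q (S.lcm E) ∨ ∃ f ∈ S, w f = 4 ∧ S.lcm E ∣ E f ∧ ∀ g ∈ S, same f g) := by
  obtain ⟨d1, d2, d3, d4⟩ := pow_one_dvd q
  have only : ∀ f ∈ S, k < w f + 1 → S.lcm E ∣ E f ∧ ∀ g ∈ S, same f g := by
    intro f hf hlt
    have hall : ∀ g ∈ S, same f g := fun g hg => by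
      by_contra h
      have := h2 f hf g hg h; have := (hw g hg).1; omega
    exact ⟨Finset.lcm_dvd fun g hg => by rw [hsame f hf g hg (hall g hg)], hall⟩
  have onemore : ∀ f ∈ S, k = w f + 1 →
      S.lcm E ∣ E f ∨ S.lcm E ∣ Nat.lcm (E f) (q ^ 1 + 1) ∨ S.lcm E ∣ Nat.lcm (E f) (q ^ 1 - 1) := by
    intro f hf hk1
    by_cases hg : ∃ g ∈ S, ¬ same f g
    · obtain ⟨g, hg, hfg⟩ := hg
      have hwg : w g = 1 := by have := h2 f hf g hg hfg; have := (hw g hg).1; omega
      have key : S.lcm E ∣ Nat.lcm (E f) (E g) := by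
        refine Finset.lcm_dvd fun h hh => ?_
        by_cases a : same f h
        · rw [hsame f hf h hh a]; exact Nat.dvd_lcm_left _ _
        by_cases b : same g h
        · rw [hsame g hg h hh b]; exact Nat.dvd_lcm_right _ _
        have := h3 f hf g hg h hh hfg a b
        have := (hw h hh).1
        omega
      rcases (hw g hg).2.2 with e | e <;> rw [e, hwg] at key
      exacts [Or.inr (Or.inl key), Or.inr (Or.inr key)]
    · push Not at hg
      exact Or.inl (Finset.lcm_dvd fun g hg' => (hsame f hf g hg' (hg g hg')).symm ▸ dvd_rfl)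
  have low2 : ∀ f ∈ S, w f ≤ 2 → E f = q ^ 2 + 1 ∨ E f ∣ q ^ 2 - 1 := by
    intro f hf h1
    rcases (by have := (hw f hf).1; omega : w f = 1 ∨ w f = 2) with h | h <;>
      rcases (hw f hf).2.2 with e | e <;> rw [h] at e
    exacts [Or.inr (e ▸ d1), Or.inr (e ▸ d2), Or.inl e, Or.inr (e ▸ dvd_rfl)]
  refine ⟨fun hk => ?_, fun hk => ?_, fun hk => ?_, fun hk => ?_⟩
  · rcases S.eq_empty_or_nonempty with rfl | ⟨f, hf⟩
    · left; simp
    have h1 : w f = 1 := by have := hw f hf; omega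
    have := (only f hf (by omega)).1
    rcases (hw f hf).2.2 with e | e <;> rw [e, h1] at this
    exacts [Or.inl this, Or.inr this]
  · by_cases hA : ∃ f ∈ S, E f = q ^ 2 + 1 ∧ w f = 2
    · obtain ⟨f, hf, e, hf2⟩ := hA
      exact Or.inl (e ▸ (only f hf (by omega)).1)
    · push Not at hA
      refine Or.inr (Finset.lcm_dvd fun f hf => ?_)
      rcases (by have := hw f hf; omega : w f = 1 ∨ w f = 2) with h | h
      · rcases (hw f hf).2.2 with e | e <;> rw [h] at e <;> rw [e]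
        exacts [d1, d2]
      · rcases (hw f hf).2.2 with e | e <;> rw [h] at e
        · exact absurd h (hA f hf e)
        · rw [e]
  · by_cases hA : ∃ f ∈ S, w f = 3
    · obtain ⟨f, hf, hw3⟩ := hA
      have := (only f hf (by omega)).1
      refine Or.inr ⟨⟨f, hf, hw3⟩, ?_⟩
      rcases (hw f hf).2.2 with e | e <;> rw [e, hw3] at this
      exacts [Or.inl this, Or.inr this]
    push Not at hA
    left
    by_cases hB : ∃ f ∈ S, w f = 2 ∧ E f = q ^ 2 + 1
    · obtain ⟨f, hf, hw2, e⟩ := hB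
      have key := onemore f hf (by omega)
      rw [e] at key
      rcases key with key | key | key
      exacts [Or.inl (key.trans (Nat.dvd_lcm_left _ _)), Or.inl key, Or.inr (Or.inl key)]
    · push Not at hB
      refine Or.inr (Or.inr (Finset.lcm_dvd fun f hf => ?_))
      have hle : w f ≤ 2 := by have := hA f hf; have := (hw f hf).2.1; omega
      rcases (by have := (hw f hf).1; omega : w f = 1 ∨ w f = 2) with h | h
      · rcases (hw f hf).2.2 with e | e <;> rw [h] at e <;> rw [e]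
        exacts [d1, d2]
      · rcases (hw f hf).2.2 with e | e <;> rw [h] at e
        · exact absurd e (hB f hf h)
        · rw [e]
  · by_cases hA : ∃ f ∈ S, w f = 4
    · obtain ⟨f, hf, hw4⟩ := hA
      exact Or.inr ⟨f, hf, hw4, only f hf (by omega)⟩
    push Not at hA
    left
    by_cases hB : ∃ f ∈ S, w f = 3
    · obtain ⟨f, hf, hw3⟩ := hB
      have key := onemore f hf (by omega)
      rcases (hw f hf).2.2 with e | e <;> rw [e, hw3] at key <;> rcases key with key | key | key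
      exacts [Or.inr (Or.inl (key.trans (Nat.dvd_lcm_left _ _))),
        Or.inr (Or.inl (key.trans ((Nat.lcm_dvd dvd_rfl d3).trans (Nat.dvd_lcm_left _ _)))), Or.inr (Or.inl key),
        Or.inr (Or.inr (key.trans (Nat.dvd_lcm_left _ _))), Or.inr (Or.inr key),
        Or.inr (Or.inr (key.trans ((Nat.lcm_dvd dvd_rfl d4).trans (Nat.dvd_lcm_left _ _))))]
    push Not at hB
    refine Or.inl (Finset.lcm_dvd fun f hf => ?_)
    rcases low2 f hf (by have := hA f hf; have := hB f hf; have := (hw f hf).2.1; omega) with h | h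
    exacts [h ▸ Nat.dvd_lcm_left _ _, h.trans (Nat.dvd_lcm_right _ _)]

variable {F : Type*} [Field F] [Fintype F]

theorem eval_ne_zero {n : ℕ} (A : Matrix (Fin n ⊕ Fin n) (Fin n ⊕ Fin n) F) {e : F}
    (h : ∀ v, A.mulVec v = e • v → v = 0) : A.charpoly.eval e ≠ 0 := by
  rw [Matrix.eval_charpoly]
  intro h0
  obtain ⟨v, hv0, hv⟩ := Matrix.exists_mulVec_eq_zero_iff.mpr h0
  refine hv0 (h v ?_)
  rw [Matrix.sub_mulVec, sub_eq_zero] at hv
  rw [← hv]
  ext i; simp [Matrix.scalar, Matrix.mulVec_diagonal]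

/-- The bound for a symplectic matrix without eigenvalues `± 1`. -/
theorem sp_bound (h2 : (2 : F) ≠ 0) (p : ℕ) [Fact p.Prime] [CharP F p] {n : ℕ} (hn1 : 1 ≤ n) (hn : n ≤ 4)
    (z : Matrix.symplecticGroup (Fin n) F) (hp : ∀ v, z.1.mulVec v = v → v = 0) (hm : ∀ v, z.1.mulVec v = -v → v = 0) :
    ∃ L K : ℕ, 1 ≤ K ∧ K ≤ n ∧ 2 ∣ L ∧ (∀ c, n + 1 ≤ K + p ^ c → orderOf z ∣ L * p ^ c) ∧
      (K = 1 → L ∣ Nat.card F ^ 1 + 1 ∨ L ∣ Nat.card F ^ 1 - 1) ∧
      (K = 2 → L ∣ Nat.card F ^ 2 + 1 ∨ L ∣ Nat.card F ^ 2 - 1) ∧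
      (K = 3 → Mid (Nat.card F) L ∨ (n = 3 ∧ (L ∣ Nat.card F ^ 3 + 1 ∨ L ∣ Nat.card F ^ 3 - 1))) ∧
      (K = 4 → Low (Nat.card F) L ∨ L ∣ Nat.card F ^ 4 + 1 ∨
        (L ∣ Nat.card F ^ 4 - 1 ∧ ∀ M, orderOf z = 2 * M → z.1 ^ M = -1)) := by
  obtain ⟨hmem, hdeg, hst⟩ := factors_spec z
  set χ := (z : Matrix (Fin n ⊕ Fin n) (Fin n ⊕ Fin n) F).charpoly with hχ
  set s := normalizedFactors χ with hs
  have he1 : χ.eval 1 ≠ 0 := eval_ne_zero _ fun v hv => hp v (by simpa using hv)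
  have he2 : χ.eval (-1) ≠ 0 := eval_ne_zero _ fun v hv => hm v (by simpa using hv)
  set S := s.toFinset with hS
  have hSs : ∀ f ∈ S, f ∈ s := fun f hf => Multiset.mem_toFinset.1 hf
  have hT : ∀ f ∈ S, TorusPoly f := fun f hf => by
    obtain ⟨r, hr⟩ := dvd_of_mem_normalizedFactors (hSs f hf)
    refine ⟨(hmem f (hSs f hf)).1, (hmem f (hSs f hf)).2.1, (hmem f (hSs f hf)).2.2, ?_, ?_⟩
    · rintro rfl; exact he1 (by rw [hr]; simp)
    · rintro rfl; exact he2 (by rw [hr]; simp)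
  have hSst : ∀ f ∈ S, star f ∈ S := fun f hf => Multiset.mem_toFinset.2 (hst f (hSs f hf)).1
  obtain ⟨k, x, hk, -⟩ := exists_torus S hT hSst
  have hsum : ∑ f ∈ S, s.count f * f.natDegree = 2 * n := by rw [← hdeg, Finset.sum_multiset_map_count]; rfl
  have hpos : ∀ f ∈ S, 1 ≤ s.count f ∧ 1 ≤ f.natDegree := fun f hf =>
    ⟨Multiset.count_pos.2 (hSs f hf), (hT f hf).1.natDegree_pos⟩
  have hsplit : ∑ f ∈ S, s.count f * f.natDegree = 2 * k + ∑ f ∈ S, (s.count f - 1) * f.natDegree := by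
    rw [hk, ← Finset.sum_add_distrib]
    refine Finset.sum_congr rfl fun f hf => ?_
    rw [add_comm f.natDegree, ← Nat.succ_mul]
    congr 1
    have := (hpos f hf).1
    omega
  have hk4 : k ≤ n := by omega
  let O : F[X] → Finset F[X] := fun f => {f, star f}
  let w : F[X] → ℕ := fun f => if star f = f then f.natDegree / 2 else f.natDegree
  have hOsum : ∀ f ∈ S, ∑ g ∈ O f, g.natDegree = 2 * w f := by
    intro f hf
    obtain ⟨hi, hmo, h0, h1, h2'⟩ := hT f hf
    by_cases h : star f = f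
    · obtain ⟨d, -, hd, -⟩ := selfStar_spec hi hmo h0 h h1 h2'
      simp only [O, w, h, if_true, Finset.pair_eq_singleton, Finset.sum_singleton]
      omega
    · simp only [O, w, if_neg h]
      rw [Finset.sum_pair (fun e => h e.symm), natDegree_star h0]
      omega
  have hw1 : ∀ f ∈ S, 1 ≤ w f := fun f hf => by
    have := hOsum f hf
    have h3 : f.natDegree ≤ ∑ g ∈ O f, g.natDegree :=
      Finset.single_le_sum (f := fun g : F[X] => g.natDegree) (fun _ _ => Nat.zero_le _) (by simp [O])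
    have := (hpos f hf).2
    omega
  have hOS : ∀ f ∈ S, O f ⊆ S := fun f hf g hg => by
    simp only [O, Finset.mem_insert, Finset.mem_singleton] at hg
    rcases hg with rfl | rfl
    exacts [hf, hSst f hf]
  have hdisj : ∀ f ∈ S, ∀ g ∈ S, g ∉ O f → Disjoint (O f) (O g) := by
    intro f hf g hg hgf
    simp only [O, Finset.mem_insert, Finset.mem_singleton, not_or] at hgf
    rw [Finset.disjoint_left]
    intro h h1 h2'
    simp only [O, Finset.mem_insert, Finset.mem_singleton] at h1 h2'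
    have ef := star_star (hT f hf).2.1 (hT f hf).2.2.1
    have eg := star_star (hT g hg).2.1 (hT g hg).2.2.1
    rcases h1 with rfl | rfl <;> rcases h2' with h2' | h2'
    · exact hgf.1 h2'.symm
    · exact hgf.2 (by rw [h2', eg])
    · exact hgf.2 h2'.symm
    · exact hgf.1 (by rw [← eg, ← h2', ef])
  have hle : ∀ T : Finset F[X], T ⊆ S → ∑ g ∈ T, g.natDegree ≤ 2 * k := fun T hT' =>
    hk ▸ Finset.sum_le_sum_of_subset hT'
  have hexp : ∀ f ∈ S, torusExp f = Nat.card F ^ w f + 1 ∨ torusExp f = Nat.card F ^ w f - 1 := fun f _ => by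
    by_cases h : star f = f
    · exact Or.inl (by simp [torusExp, w, h])
    · exact Or.inr (by simp [torusExp, w, if_neg h])
  obtain ⟨c1, c2, c3, c4⟩ := lcm_class (q := Nat.card F) (k := k) S w torusExp (fun f g => g ∈ O f)
    (fun f hf => ⟨hw1 f hf, by have := hle _ (hOS f hf); have := hOsum f hf; omega, hexp f hf⟩)
    (fun f hf g hg h => by
      simp only [O, Finset.mem_insert, Finset.mem_singleton] at h
      rcases h with rfl | rfl
      exacts [rfl, torusExp_star (hT f hf)])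
    (fun f hf g hg h => by
      have := hle _ (Finset.union_subset (hOS f hf) (hOS g hg))
      rw [Finset.sum_union (hdisj f hf g hg h), hOsum f hf, hOsum g hg] at this
      omega)
    (fun f hf g hg h hh hfg hfh hgh => by
      have := hle _ (Finset.union_subset (Finset.union_subset (hOS f hf) (hOS g hg)) (hOS h hh))
      rw [Finset.sum_union (Finset.disjoint_union_left.2 ⟨hdisj f hf h hh hfh, hdisj g hg h hh hgh⟩),
        Finset.sum_union (hdisj f hf g hg hfg), hOsum f hf, hOsum g hg, hOsum h hh] at this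
      omega)
  have hmult : ∀ f ∈ S, (s.count f - 1) * (2 * w f) ≤ 2 * (n - k) := by
    intro f hf
    have h1 : ∑ g ∈ O f, (s.count g - 1) * g.natDegree = (s.count f - 1) * (2 * w f) := by
      rw [← hOsum f hf, Finset.mul_sum]
      refine Finset.sum_congr rfl fun g hg => ?_
      simp only [O, Finset.mem_insert, Finset.mem_singleton] at hg
      rcases hg with rfl | rfl
      · rfl
      · rw [(hst f (hSs f hf)).2]
    have h3 := Finset.sum_le_sum_of_subset (f := fun g => (s.count g - 1) * g.natDegree) (hOS f hf)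
    rw [h1] at h3
    omega
  have hSne : S.Nonempty := by
    rw [Finset.nonempty_iff_ne_empty]
    intro h
    rw [h, Finset.sum_empty] at hsum
    omega
  obtain ⟨f₀, hf₀⟩ := hSne
  have hk1 : 1 ≤ k := by
    have h1 := hle _ (hOS f₀ hf₀)
    rw [hOsum f₀ hf₀] at h1
    have := hw1 f₀ hf₀
    omega
  have hq : Odd (Nat.card F) := odd_card h2
  have hne : χ ≠ 0 := (Matrix.charpoly_monic _).ne_zero
  have hdvd : ∀ (P : F[X]) (N : ℕ), (∀ f ∈ S, f ∣ P) → (∀ f ∈ S, s.count f ≤ N) → χ ∣ P ^ N := by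
    intro P N hP hN
    refine (prod_normalizedFactors hne).symm.dvd.trans ?_
    rw [Finset.prod_multiset_count]
    refine Finset.prod_dvd_of_coprime ?_ fun f hf => ?_
    · intro f hf g' hg hfg
      have hf' := Multiset.mem_toFinset.1 hf
      have hg' := Multiset.mem_toFinset.1 hg
      refine IsCoprime.pow ((hmem f hf').1.coprime_iff_not_dvd.2 fun h => hfg ?_)
      exact eq_of_monic_of_associated (hmem f hf').2.1 (hmem g' hg').2.1
        ((hmem f hf').1.associated_of_dvd (hmem g' hg').1 h)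
    · exact (pow_dvd_pow_of_dvd (hP f hf) _).trans (pow_dvd_pow _ (hN f hf))
  have : Nonempty (Fin n ⊕ Fin n) := ⟨Sum.inl ⟨0, by omega⟩⟩
  refine ⟨S.lcm torusExp, k, hk1, hk4, (torusExp_even hq (hT f₀ hf₀)).trans (Finset.dvd_lcm hf₀), fun c hc => ?_,
    c1, c2, fun hk3 => (c3 hk3).imp_right fun h => ⟨?_, h.2⟩, fun hk' => ?_⟩
  · have h1 := hdvd (X ^ S.lcm torusExp - 1) (p ^ c) (fun f hf => by
      obtain ⟨r, hr⟩ := Finset.dvd_lcm (f := torusExp) hf
      refine (torusExp_dvd (hT f hf)).trans ?_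
      rw [hr, pow_mul]
      exact sub_one_dvd_pow_sub_one _ r) fun f hf => by
      have h1 := hmult f hf
      have h2' := Nat.mul_le_mul_left (s.count f - 1) (show 2 ≤ 2 * w f by have := hw1 f hf; omega)
      omega
    obtain ⟨r, hr⟩ := h1
    have h := congrArg (Polynomial.aeval z.1) hr
    rw [map_pow, map_sub, map_pow, Polynomial.aeval_X, map_one, map_mul, Matrix.aeval_self_charpoly, zero_mul,
      sub_pow_char_pow_of_commute p c (Commute.one_right _), one_pow, sub_eq_zero, ← pow_mul] at h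
    exact orderOf_dvd_of_pow_eq_one (Subtype.ext (by rw [SubmonoidClass.coe_pow, h]; rfl))
  · obtain ⟨⟨f, hf, hf3⟩, -⟩ := h
    by_contra hn3
    have hn4 : n = 4 := by omega
    obtain ⟨g, hg, hg2⟩ : ∃ g ∈ S, 2 ≤ s.count g := by
      by_contra hall
      push Not at hall
      have : ∑ f ∈ S, (s.count f - 1) * f.natDegree = 0 := Finset.sum_eq_zero fun g hg => by
        have := hall g hg; rw [show s.count g - 1 = 0 by omega, zero_mul]
      omega
    by_cases h : g ∈ O f
    · have hm' := hmult f hf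
      have hcg : s.count g = s.count f := by
        simp only [O, Finset.mem_insert, Finset.mem_singleton] at h
        rcases h with rfl | rfl
        exacts [rfl, (hst f (hSs f hf)).2]
      have := Nat.mul_le_mul_right (2 * w f) (show 1 ≤ s.count f - 1 by omega)
      omega
    · have := hle _ (Finset.union_subset (hOS f hf) (hOS g hg))
      rw [Finset.sum_union (hdisj f hf g hg h), hOsum f hf, hOsum g hg] at this
      have := hw1 g hg
      omega
  · rcases c4 hk' with h | ⟨f, hf, hf4, hL, hall⟩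
    · exact Or.inl h
    right
    rcases hexp f hf with e | e
    · exact Or.inl (by rw [hf4] at e; exact e ▸ hL)
    refine Or.inr ⟨by rw [hf4] at e; exact e ▸ hL, fun M hM => ?_⟩
    have hM0 : 0 < M := by have := orderOf_pos z; omega
    have hnd : ¬ f ∣ X ^ M - 1 := by
      intro hd
      have hcone : ∀ g ∈ S, s.count g ≤ 1 := fun g hg => by
        have := hmult g hg
        have := Nat.mul_le_mul_left (s.count g - 1) (show 2 ≤ 2 * w g by have := hw1 g hg; omega)
        omega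
      obtain ⟨r, hr⟩ := hdvd (X ^ M - 1) 1 (fun g hg => by
        have h := hall g hg
        simp only [O, Finset.mem_insert, Finset.mem_singleton] at h
        rcases h with rfl | rfl
        · exact hd
        · simpa using star_dvd (hT f hf).1.ne_zero hM0 (e := 1) (one_mul 1) (by simpa using hd)) hcone
      have h := congrArg (Polynomial.aeval z.1) hr
      rw [pow_one, map_sub, map_pow, Polynomial.aeval_X, map_one, map_mul, Matrix.aeval_self_charpoly, zero_mul,
        sub_eq_zero] at h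
      have := Nat.le_of_dvd hM0 (orderOf_dvd_of_pow_eq_one (Subtype.ext (by rw [SubmonoidClass.coe_pow, h]; rfl) :
        z ^ M = 1))
      omega
    have hco : IsCoprime χ (X ^ M - 1) := by
      obtain ⟨u, hu⟩ := prod_normalizedFactors hne
      rw [← hu, isCoprime_mul_unit_right_left u.isUnit]
      suffices hall' : ∀ t : Multiset F[X], (∀ g ∈ t, g ∈ s) → IsCoprime t.prod (X ^ M - 1) from hall' s fun g hg => hg
      intro t
      induction t using Multiset.induction with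
      | empty => intro _; simpa using isCoprime_one_left
      | cons g t ih =>
      intro hsub
      have hg := hsub g (Multiset.mem_cons_self g t)
      have ht := ih fun a ha => hsub a (Multiset.mem_cons_of_mem ha)
      rw [Multiset.prod_cons]
      refine IsCoprime.mul_left ((hmem g hg).1.coprime_iff_not_dvd.2 fun hd => hnd ?_) ht
      have h := hall g (Multiset.mem_toFinset.2 hg)
      simp only [O, Finset.mem_insert, Finset.mem_singleton] at h
      rcases h with rfl | rfl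
      · exact hd
      · have h' := star_dvd (hT _ (hSst f hf)).1.ne_zero hM0 (e := 1) (one_mul 1) (by simpa using hd)
        rw [star_star (hT f hf).2.1 (hT f hf).2.2.1] at h'
        simpa using h'
    obtain ⟨u, v, huv⟩ := hco
    have h := congrArg (Polynomial.aeval z.1) huv
    rw [map_add, map_mul, map_mul, Matrix.aeval_self_charpoly, mul_zero, zero_add, map_sub, map_pow,
      Polynomial.aeval_X, map_one] at h
    have hz2 : (z.1 ^ M - 1) * (z.1 ^ M + 1) = 0 := by
      rw [sub_mul, one_mul, mul_add, mul_one, ← pow_add, ← two_mul, ← hM, ← SubmonoidClass.coe_pow,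
        pow_orderOf_eq_one, OneMemClass.coe_one]
      abel
    have h' := congrArg (Polynomial.aeval z.1 v * ·) hz2
    simp only [← mul_assoc, h, one_mul, mul_zero] at h'
    exact eq_neg_of_add_eq_zero_left h'

/-- The exponent of a unipotent element on the eigenspace of `-1`, of dimension `8 - 2 n`. -/
def expA (p n : ℕ) : ℕ := if 3 ≤ n then 0 else if 7 ≤ p + 2 * n then 1 else 2

/-- The exponent of a unipotent element on the other eigenspaces. -/
def expB (p n K : ℕ) : ℕ := if n ≤ K then 0 else if n + 1 ≤ K + p then 1 else 2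

/-- The cases of the orders in eight dimensions without fixed vectors, outside the single orbit case. -/
theorem top_cases {q p m : ℕ} (hp : p.Prime) (hp2 : p ≠ 2) {n L K : ℕ} (hn : n ≤ 4) (hK : 1 ≤ K)
    (hKn : K ≤ n) (hm : m ∣ L * p ^ max (expA p n) (expB p n K))
    (h1 : K = 1 → L ∣ q ^ 1 + 1 ∨ L ∣ q ^ 1 - 1) (h2 : K = 2 → L ∣ q ^ 2 + 1 ∨ L ∣ q ^ 2 - 1)
    (h3 : K = 3 → Mid q L ∨ (n = 3 ∧ (L ∣ q ^ 3 + 1 ∨ L ∣ q ^ 3 - 1))) (h4 : K = 4 → Low q L) :
    ∃ T ∈ tops q p, m ∣ T := by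
  have hp3 : 3 ≤ p := by have := hp.two_le; omega
  obtain ⟨d1, d2, -, -⟩ := pow_one_dvd q
  obtain ⟨C, hC⟩ : ∃ C, C = max (expA p n) (expB p n K) := ⟨_, rfl⟩
  rw [← hC] at hm
  have hb : C ≤ 2 ∧ (2 ≤ K → C ≤ 1) ∧ (n ≤ K → 3 ≤ n → C = 0) ∧ (C ≤ 1 ∨ p = 3) := by
    have hp4 : p = 3 ∨ 5 ≤ p := by
      rcases Nat.lt_or_ge p 5 with h | h
      · have : p ≠ 4 := fun h => by rw [h] at hp; exact absurd hp (by norm_num)
        omega
      · exact Or.inr h
    subst hC
    unfold expA expB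
    refine ⟨?_, ?_, ?_, ?_⟩ <;> split_ifs <;> omega
  obtain ⟨hC2, hCK, hC0, hCp⟩ := hb
  have hsmall : ∀ {T₀ T : ℕ}, L ∣ T₀ → C ≤ 1 → p * T₀ ∣ T → T ∈ tops q p → ∃ T ∈ tops q p, m ∣ T := by
    intro T₀ T hd hC1 hT hmem
    refine ⟨T, hmem, hm.trans ((Nat.mul_dvd_mul hd (pow_dvd_pow p hC1)).trans ?_)⟩
    rwa [pow_one, Nat.mul_comm]
  rcases (by omega : K = 1 ∨ K = 2 ∨ K = 3 ∨ K = 4) with rfl | rfl | rfl | rfl
  · rcases hCp with hC1 | rfl
    · rcases h1 rfl with h | h
      · exact hsmall h hC1 (Nat.mul_dvd_mul_left p d1) (by simp [tops])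
      · exact hsmall h hC1 (Nat.mul_dvd_mul_left p d2) (by simp [tops])
    · rcases h1 rfl with h | h
      · exact ⟨9 * (q ^ 1 + 1), by simp [tops],
          hm.trans ((Nat.mul_dvd_mul h (pow_dvd_pow 3 hC2)).trans (dvd_of_eq (by ring)))⟩
      · exact ⟨9 * (q ^ 1 - 1), by simp [tops],
          hm.trans ((Nat.mul_dvd_mul h (pow_dvd_pow 3 hC2)).trans (dvd_of_eq (by ring)))⟩
  · rcases h2 rfl with h | h
    · exact hsmall (h.trans (Nat.dvd_lcm_left _ (q ^ 1 + 1))) (hCK (by omega)) dvd_rfl (by simp [tops])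
    · exact hsmall h (hCK (by omega)) dvd_rfl (by simp [tops])
  · rcases h3 rfl with (h | h | h) | ⟨hn3, h⟩
    · exact hsmall h (hCK (by omega)) dvd_rfl (by simp [tops])
    · exact hsmall h (hCK (by omega)) dvd_rfl (by simp [tops])
    · exact hsmall h (hCK (by omega)) dvd_rfl (by simp [tops])
    · rw [hC0 (by omega) (by omega), pow_zero, mul_one] at hm
      rcases h with h | h
      · exact ⟨Nat.lcm (q ^ 3 + 1) (q ^ 1 - 1), by simp [tops], hm.trans (h.trans (Nat.dvd_lcm_left _ _))⟩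
      · exact ⟨Nat.lcm (q ^ 3 - 1) (q ^ 1 + 1), by simp [tops], hm.trans (h.trans (Nat.dvd_lcm_left _ _))⟩
  · rw [hC0 (by omega) (by omega), pow_zero, mul_one] at hm
    rcases h4 rfl with h | h | h <;> exact ⟨_, by simp [tops], hm.trans h⟩

/-- The case of the eigenspace of `-1` being everything. -/
theorem top_cases_zero {q p m c : ℕ} (hp : p.Prime) (hp2 : p ≠ 2) (hq : Odd q) (hm : m ∣ 2 * p ^ c)
    (hc : c ≤ if 7 ≤ p then 1 else 2) : ∃ T ∈ tops q p, m ∣ T := by
  obtain ⟨d, hd⟩ : 2 ∣ q ^ 2 - 1 := even_iff_two_dvd.1 (Nat.Odd.sub_odd hq.pow odd_one)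
  have hm' : m ∣ 2 * p ^ (if 7 ≤ p then 1 else 2) := hm.trans (Nat.mul_dvd_mul_left 2 (pow_dvd_pow p hc))
  split_ifs at hm' with h7
  · exact ⟨p * (q ^ 2 - 1), by simp [tops], hm'.trans ⟨d, by rw [hd]; ring⟩⟩
  · rcases (by have := hp.two_le; omega : p = 3 ∨ p = 4 ∨ p = 5 ∨ p = 6) with rfl | rfl | rfl | rfl
    · obtain ⟨e, he⟩ : 2 ∣ q ^ 1 + 1 := even_iff_two_dvd.1 (hq.pow).add_one
      exact ⟨9 * (q ^ 1 + 1), by simp [tops], hm'.trans ⟨e, by rw [he]; ring⟩⟩
    · exact absurd hp (by norm_num)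
    · exact ⟨50, by simp [tops], hm'⟩
    · exact absurd hp (by norm_num)

end CfsgLib.SpecNine
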