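import Cfsg.Agent.SpecNine.Decomp
import Cfsg.Agent.SpecNine.Orders
import Cfsg.Agent.SpecEight.Elements

/-!
Element orders of `Ω₉` against those of `V ⋊ Ω₈⁻`.
-/

set_option autoImplicit false
set_option linter.unusedSectionVars false

namespace CfsgLib.SpecNine

open Matrix QuadraticMap CfsgLib.PrimeGraphBC
open scoped Classical

variable {F : Type*} [Field F] [Fintype F]

theorem subsingleton_pres {ι : Type} [Fintype ι] [DecidableEq ι] (h : Fintype.card ι = 0) (G : Matrix ι ι F) :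
    Subsingleton ↥(pres G) := by
  have : IsEmpty ι := Fintype.card_eq_zero_iff.1 h
  exact ⟨fun a b => Subtype.ext (Units.ext (Subsingleton.elim _ _))⟩

/-- The semisimple part. -/
theorem split_order {p : ℕ} (hp : p.Prime) {m : ℕ} (hm : m ≠ 0) : ∃ k r, ¬ p ∣ r ∧ m = p ^ k * r :=
  Nat.exists_eq_pow_mul_and_not_dvd hm p hp.ne_one

/-- Each order in `V ⋊ Ω₈⁻` occurs in `Ω₉`. -/
theorem omel_of_sh (h2 : (2 : F) ≠ 0) {p : ℕ} [Fact p.Prime] [CharP F p] (hp : p ≠ 2) {N : ℕ} (h : SH F p N) :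
    OmEl F 4 N := by
  have hpp : p.Prime := Fact.out
  obtain ⟨ι, _, _, G, h, hc, hGs, hGu, -, hmem, hN⟩ := h
  rcases hN with hN | ⟨hN, hsum⟩
  · refine ⟨ι ⊕ Fin 1, inferInstance, inferInstance, Matrix.fromBlocks G 0 0 1, by simp [hc],
      fromBlocks_symm hGs transpose_one, fromBlocks_unit hGu (by simp), blockHom G 1 (h, 1),
      (block_left_mem h2 hGs hGu transpose_one (by simp) h).2 hmem, ?_⟩
    rw [orderOf_blockHom, orderOf_one, Nat.lcm_one_right, hN]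
  obtain ⟨k, r, hr, hm⟩ := split_order hpp (orderOf_pos h).ne'
  obtain ⟨s, hs⟩ : ∃ s, s = h ^ p ^ k := ⟨_, rfl⟩
  have hso : orderOf s = r := by
    rw [hs, orderOf_pow_of_dvd (pow_ne_zero _ hpp.ne_zero) (hm ▸ dvd_mul_right _ _), hm,
      Nat.mul_div_cancel_left _ (pow_pos hpp.pos k)]
  obtain ⟨a, b, G₁, G₂, φ, y, hab, h1s, h2s, h1u, h2u, -, hφs, hfix, hdet, -, hsumφ, -, hcomm⟩ :=
    decomp hGs hGu s (natCast_ne_zero_of_coprime (p := p) hr) (by rw [← hso]; exact pow_orderOf_eq_one s)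
  obtain ⟨u₁, u₂, hu, -⟩ := hcomm h (by rw [hs]; exact (Commute.self_pow h (p ^ k)).eq)
  have hpow : blockHom G₁ G₂ (u₁ ^ p ^ k, u₂ ^ p ^ k) = blockHom G₁ G₂ (1, y) := by
    rw [← hφs, hs, map_pow, hu, ← map_pow]; rfl
  have hpair := blockHom_injective hpow
  have hu₁ : u₁ ^ p ^ k = 1 := congrArg Prod.fst hpair
  have hu₂ : u₂ ^ p ^ k = y := congrArg Prod.snd hpair
  have hym : y ∈ commutator ↥(pres G₂) := by
    rw [← block_right_mem h2 h1s h1u h2s h2u, ← hφs]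
    exact mem_commutator_map φ (hs ▸ pow_mem hmem _)
  have hb : Even b := by
    have h := even_of_no_fix h2 h2u y (det_eq_one_of_mem_commutator hym) hfix
    rwa [Fintype.card_fin] at h
  have hyo : orderOf y = r := by
    rw [← hso, ← MulEquiv.orderOf_eq φ, hφs, orderOf_blockHom, orderOf_one, Nat.lcm_one_left]
  have hfix2 : ∀ v, u₂.1.1 *ᵥ v = v → v = 0 := fun v hv => hfix v (by
    rw [← hu₂, SubgroupClass.coe_pow, Units.val_pow_eq_pow_val]
    have : ∀ i, u₂.1.1 ^ i *ᵥ v = v := fun i => by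
      induction i with
      | zero => simp
      | succ i ih => rw [pow_succ, ← Matrix.mulVec_mulVec, hv, ih]
    exact this _)
  have hka : p ^ k + 1 ≤ a := by
    have hne : ∑ i ∈ Finset.range (orderOf h), (φ h).1.1 ^ i ≠ 0 := fun h0 => hsum (hsumφ h _ h0)
    rw [hu, blockHom_apply, sum_blocks] at hne
    have hz : ∑ i ∈ Finset.range (orderOf h), u₂.1.1 ^ i = 0 := by
      have hu2o : u₂.1.1 ^ orderOf h = 1 := by
        rw [← Units.val_pow_eq_pow_val, ← SubgroupClass.coe_pow, hm, pow_mul, hu₂, ← hyo, pow_orderOf_eq_one]; rfl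
      have hu : IsUnit (u₂.1.1 - 1).det := isUnit_iff_ne_zero.2 fun h0 => by
        obtain ⟨v, hv0, hv⟩ := Matrix.exists_mulVec_eq_zero_iff.mpr h0
        rw [Matrix.sub_mulVec, Matrix.one_mulVec, sub_eq_zero] at hv
        exact hv0 (hfix2 v hv)
      calc _ = (u₂.1.1 - 1)⁻¹ * ((u₂.1.1 - 1) * ∑ i ∈ Finset.range (orderOf h), u₂.1.1 ^ i) := by
            rw [← Matrix.mul_assoc, Matrix.nonsing_inv_mul _ hu, Matrix.one_mul]
        _ = 0 := by rw [mul_geom_sum, hu2o, sub_self, Matrix.mul_zero]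
    have hu1m : u₁.1.1 ^ p ^ k = 1 := by
      rw [← Units.val_pow_eq_pow_val, ← SubgroupClass.coe_pow, hu₁]; rfl
    rw [hz, hm, mul_comm (p ^ k) r, sum_pow_mul hu1m, geom_pred (F := F) p] at hne
    have hnil : (u₁.1.1 - 1) ^ a = 0 := by
      rcases Nat.eq_zero_or_pos a with ha0 | hapos
      · subst ha0; exact Subsingleton.elim _ _
      have : Nonempty (Fin a) := ⟨⟨0, hapos⟩⟩
      have h := nil_card (M := u₁.1.1 - 1) (j := p ^ k)
        (by rw [sub_pow_char_pow_of_commute p k (Commute.one_right _), one_pow, hu1m, sub_self])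
      rwa [Fintype.card_fin] at h
    have hlt : p ^ k - 1 < a := by
      by_contra hle
      rw [pow_eq_zero_of_le (by omega : a ≤ p ^ k - 1) hnil, smul_zero] at hne
      exact hne Matrix.fromBlocks_zero
    have hodd : Odd (p ^ k) := (hpp.odd_of_ne_two hp).pow
    rw [Nat.odd_iff] at hodd
    rw [Nat.even_iff] at hb
    omega
  obtain ⟨GD, u, hDs, hDu, -, hupow⟩ := exists_regular (F := F) h2 p (D := p ^ k + 2)
    ((hpp.odd_of_ne_two hp).pow.add_even even_two)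
  have huo : orderOf u = p ^ (k + 1) := by
    have h3 : 3 ≤ p := by have := hpp.two_le; omega
    have h1 := Nat.one_le_pow k p hpp.pos
    refine orderOf_eq_prime_pow (fun h => ?_) ((hupow _).2 ?_)
    · have := (hupow k).1 h; omega
    · rw [pow_succ]; have := Nat.mul_le_mul_left (p ^ k) h3; omega
  obtain ⟨t, ht⟩ : ∃ t, b + (p ^ k + 2 + t) = 9 := ⟨9 - b - (p ^ k + 2), by omega⟩
  have hRs := fromBlocks_symm hDs (transpose_one : (1 : Matrix (Fin t) (Fin t) F)ᵀ = 1)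
  have hRu := fromBlocks_unit hDu (G₂ := (1 : Matrix (Fin t) (Fin t) F)) (by simp)
  have hGs' := fromBlocks_symm h2s hRs
  have hGu' := fromBlocks_unit h2u hRu
  refine ⟨Fin b ⊕ (Fin (p ^ k + 2) ⊕ Fin t), inferInstance, inferInstance,
    Matrix.fromBlocks G₂ 0 0 (Matrix.fromBlocks GD 0 0 1), by simp; omega, hGs', hGu',
    blockHom G₂ _ (y, 1) * blockHom G₂ _ (1, blockHom GD 1 (u, 1)), ?_, ?_⟩
  · refine mul_mem ((block_left_mem h2 h2s h2u hRs hRu y).2 hym)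
      (odd_mem_of_sq_mem (sq_mem_commutator h2 hGs' hGu' (by simp; omega)) ?_)
    rw [orderOf_blockHom, orderOf_one, Nat.lcm_one_left, orderOf_blockHom, orderOf_one, Nat.lcm_one_right, huo]
    exact (hpp.odd_of_ne_two hp).pow
  · rw [← map_mul, Prod.mk_mul_mk, mul_one, one_mul, orderOf_blockHom, orderOf_blockHom, orderOf_one,
      Nat.lcm_one_right, huo, hyo, ((hpp.coprime_iff_not_dvd.2 hr).symm.pow_right _).lcm_eq_mul, hN, hm]
    ring

/-- An isometry without eigenvalues `± 1` has a symplectic conjugate. -/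
theorem exists_symp (h2 : (2 : F) ≠ 0) {b : ℕ} {G : Matrix (Fin b) (Fin b) F} (hGs : Gᵀ = G) (hGu : IsUnit G.det)
    (x : ↥(pres G)) (hp : ∀ v, x.1.1 *ᵥ v = v → v = 0) (hm : ∀ v, x.1.1 *ᵥ v = -v → v = 0) :
    ∃ (n : ℕ) (z : Matrix.symplecticGroup (Fin n) F), b = 2 * n ∧ orderOf z = orderOf x ∧ x.1.1.det = 1 ∧
      (∀ v, z.1 *ᵥ v = v → v = 0) ∧ (∀ v, z.1 *ᵥ v = -v → v = 0) ∧ ∀ M : ℕ, z.1 ^ M = -1 → x.1.1 ^ M = -1 := by
  obtain ⟨y, hy⟩ : ∃ y : GL (Fin b) F, y = x.1 := ⟨_, rfl⟩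
  rw [← hy] at hp hm ⊢
  have hym : y ∈ pres G := hy ▸ x.2
  have h1 : y.1 * y⁻¹.1 = 1 := by rw [← Units.val_mul, mul_inv_cancel, Units.val_one]
  have hmove : y.1ᵀ * G = G * y⁻¹.1 := by
    conv_rhs => rw [← mem_pres.1 hym]
    rw [Matrix.mul_assoc _ y.1, h1, Matrix.mul_one]
  have hmove' : y⁻¹.1ᵀ * G = G * y.1 := by
    conv_lhs => rw [← mem_pres.1 hym]
    rw [← Matrix.mul_assoc, ← Matrix.mul_assoc, ← transpose_mul, h1, transpose_one, Matrix.one_mul]
  obtain ⟨K, hK⟩ : ∃ K, K = G * (y.1 - y⁻¹.1) := ⟨_, rfl⟩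
  have hKt : Kᵀ = -K := by
    rw [hK, transpose_mul, transpose_sub, hGs, Matrix.sub_mul, hmove, hmove', Matrix.mul_sub, neg_sub]
  have hKu : IsUnit K.det := by
    rw [hK, Matrix.det_mul]
    refine hGu.mul (isUnit_iff_ne_zero.2 fun h0 => ?_)
    obtain ⟨v, hv0, hv⟩ := Matrix.exists_mulVec_eq_zero_iff.mpr h0
    rw [Matrix.sub_mulVec, sub_eq_zero] at hv
    have h3 : y.1 *ᵥ (y.1 *ᵥ v) = v := by rw [hv, Matrix.mulVec_mulVec, h1, Matrix.one_mulVec]
    have h4 : y.1 *ᵥ v + v = 0 := hp _ (by rw [Matrix.mulVec_add, h3, add_comm])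
    exact hv0 (hm v (eq_neg_of_add_eq_zero_left h4))
  have hyK : y ∈ pres K := mem_pres.2 (by
    have hc : (y.1 - y⁻¹.1) * y.1 = y.1 * (y.1 - y⁻¹.1) := by
      rw [Matrix.sub_mul, Matrix.mul_sub, ← Units.val_mul y⁻¹ y, inv_mul_cancel, Units.val_one, h1]
    calc _ = y.1ᵀ * G * ((y.1 - y⁻¹.1) * y.1) := by rw [hK]; simp only [Matrix.mul_assoc]
      _ = (y.1ᵀ * G * y.1) * (y.1 - y⁻¹.1) := by rw [hc]; simp only [Matrix.mul_assoc]
      _ = _ := by rw [mem_pres.1 hym, hK])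
  obtain ⟨n, hn⟩ : Even b := by
    by_contra hodd
    rw [Nat.not_even_iff_odd] at hodd
    have h := congrArg Matrix.det hKt
    rw [Matrix.det_transpose, Matrix.det_neg, Fintype.card_fin, hodd.neg_one_pow] at h
    exact hKu.ne_zero ((mul_eq_zero.1 (by linear_combination h : (2 : F) * K.det = 0)).resolve_left h2)
  obtain ⟨e⟩ : Nonempty (Fin n ⊕ Fin n ≃ Fin b) := ⟨Fintype.equivOfCardEq (by simp [hn])⟩
  obtain ⟨a, hau, ha⟩ := CfsgLib.SignedClasses.congr_alt h2 (B := K.submatrix e e) (B' := Matrix.J (Fin n) F)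
    (by rw [Matrix.transpose_submatrix, hKt]; rfl) (by rwa [Matrix.det_submatrix_equiv_self])
    (Matrix.J_transpose _ _) (by rw [det_J]; exact isUnit_one)
  obtain ⟨A, hA⟩ : ∃ A : GL (Fin n ⊕ Fin n) F, A.1 = a := ⟨Matrix.nonsingInvUnit a hau, rfl⟩
  obtain ⟨Y, hY⟩ : ∃ Y : GL (Fin n ⊕ Fin n) F, Y.1 = y.1.submatrix e e :=
    ⟨Units.mapEquiv (Matrix.reindexAlgEquiv F F e.symm).toRingEquiv.toMulEquiv y, rfl⟩
  obtain ⟨Z, hZ⟩ : ∃ Z : GL (Fin n ⊕ Fin n) F, Z = A⁻¹ * Y * A := ⟨_, rfl⟩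
  have hAA : A.1 * A⁻¹.1 = 1 := by rw [← Units.val_mul, mul_inv_cancel, Units.val_one]
  have hAA' : A⁻¹.1 * A.1 = 1 := by rw [← Units.val_mul, inv_mul_cancel, Units.val_one]
  have hYK : Y.1ᵀ * K.submatrix e e * Y.1 = K.submatrix e e := by
    rw [hY, Matrix.transpose_submatrix, Matrix.submatrix_mul_equiv, Matrix.submatrix_mul_equiv, mem_pres.1 hyK]
  have hZJ : Z.1 ∈ Matrix.symplecticGroup (Fin n) F := by
    rw [SymplecticGroup.mem_iff', hZ, Units.val_mul, Units.val_mul, ← ha, ← hA]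
    calc _ = A.1ᵀ * (Y.1ᵀ * ((A.1 * A⁻¹.1)ᵀ * K.submatrix e e * (A.1 * A⁻¹.1)) * Y.1) * A.1 := by
          simp only [transpose_mul, Matrix.mul_assoc]
      _ = _ := by rw [hAA, transpose_one, Matrix.one_mul, Matrix.mul_one, hYK]
  have hyZ : ∀ M : ℕ, y.1 ^ M = ((A.1 * Z.1 ^ M * A⁻¹.1)).submatrix e.symm e.symm := by
    intro M
    have h : A.1 * Z.1 ^ M * A⁻¹.1 = Y.1 ^ M := by
      rw [← Units.val_pow_eq_pow_val, ← Units.val_pow_eq_pow_val, ← Units.val_mul, ← Units.val_mul, hZ]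
      congr 1
      rw [show A⁻¹ * Y * A = A⁻¹ * Y * A⁻¹⁻¹ by rw [inv_inv], conj_pow, inv_inv]
      group
    rw [h, hY]
    have hp' : ∀ i : ℕ, (y.1.submatrix e e) ^ i = (y.1 ^ i).submatrix e e := fun i => by
      induction i with
      | zero => simp
      | succ i ih => rw [pow_succ, ih, Matrix.submatrix_mul_equiv, pow_succ]
    rw [hp', Matrix.submatrix_submatrix]
    simp
  refine ⟨n, ⟨Z.1, hZJ⟩, by omega, ?_, ?_, ?_, ?_, fun M hM => ?_⟩
  · rw [← orderOf_val, ← hy]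
    refine orderOf_eq_orderOf_iff.2 fun k => ⟨fun h => Units.ext ?_, fun h => Subtype.ext ?_⟩
    · have h' : Z.1 ^ k = 1 := congrArg Subtype.val h
      rw [Units.val_pow_eq_pow_val, hyZ, h', Matrix.mul_one, hAA]
      simp
    · show Z.1 ^ k = 1
      have h' := hyZ k
      rw [← Units.val_pow_eq_pow_val, h, Units.val_one] at h'
      have h'' := congrArg (fun M => A⁻¹.1 * M.submatrix e e * A.1) h'
      simp only [Matrix.submatrix_submatrix, Equiv.symm_comp_self, Matrix.submatrix_id_id,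
        Matrix.submatrix_one_equiv, Matrix.mul_one, hAA'] at h''
      rw [h'']
      simp only [← Matrix.mul_assoc, hAA', Matrix.one_mul]
      rw [Matrix.mul_assoc, hAA', Matrix.mul_one]
  · have h := hyZ 1
    rw [pow_one, pow_one] at h
    rw [h, Matrix.det_submatrix_equiv_self, Matrix.det_mul, Matrix.det_mul, SymplecticGroup.det_eq_one hZJ, mul_one,
      ← Matrix.det_mul, hAA, Matrix.det_one]
  · intro v hv
    have h0 : A.1 *ᵥ v = 0 := by
      have := hp ((A.1 *ᵥ v) ∘ e.symm) (by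
        have h := hyZ 1
        rw [pow_one, pow_one] at h
        rw [h, Matrix.submatrix_mulVec_equiv]
        simp only [Function.comp_assoc, Equiv.symm_symm, Equiv.symm_comp_self, Function.comp_id]
        rw [Matrix.mulVec_mulVec, Matrix.mul_assoc, hAA', Matrix.mul_one, ← Matrix.mulVec_mulVec, hv])
      funext i
      simpa using congrFun this (e i)
    have := congrArg (A⁻¹.1 *ᵥ ·) h0
    simpa [Matrix.mulVec_mulVec, hAA'] using this
  · intro v hv
    have h0 : A.1 *ᵥ v = 0 := by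
      have := hm ((A.1 *ᵥ v) ∘ e.symm) (by
        have h := hyZ 1
        rw [pow_one, pow_one] at h
        rw [h, Matrix.submatrix_mulVec_equiv]
        simp only [Function.comp_assoc, Equiv.symm_symm, Equiv.symm_comp_self, Function.comp_id]
        rw [Matrix.mulVec_mulVec, Matrix.mul_assoc, hAA', Matrix.mul_one, ← Matrix.mulVec_mulVec, hv,
          Matrix.mulVec_neg]
        rfl)
      funext i
      simpa using congrFun this (e i)
    have := congrArg (A⁻¹.1 *ᵥ ·) h0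
    simpa [Matrix.mulVec_mulVec, hAA'] using this
  · rw [hyZ, show Z.1 ^ M = -1 from hM, Matrix.mul_neg, Matrix.mul_one, Matrix.neg_mul, hAA, Matrix.submatrix_neg]
    simp

theorem dvd_two_of_dvd_card {q m : ℕ} (hq : Odd q) (h4 : m ∣ q ^ 4 + 1)
    (hc : m ∣ 2 * q ^ 12 * (q ^ 4 - 1) * ((q ^ 2 - 1) * (q ^ 4 - 1) * (q ^ 6 - 1))) : m ∣ 2 := by
  obtain ⟨o, ho⟩ : 2 ∣ q ^ 4 + 1 := even_iff_two_dvd.1 hq.pow.add_one
  have hq1 : 1 ≤ q := hq.pos
  have hmod : (q ^ 4 + 1) % 4 = 2 := by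
    have h : q % 4 = 1 ∨ q % 4 = 3 := by have := Nat.odd_iff.1 hq; omega
    rcases h with h | h <;> simp [Nat.add_mod, Nat.pow_mod, h]
  have hoo : Odd o := by rw [Nat.odd_iff]; omega
  have key : ∀ {x : ℕ}, (∀ d, d ∣ q ^ 4 + 1 → d ∣ x → d ∣ 2) → Nat.Coprime o x := fun {x} h => by
    have h1 := h _ ((Nat.gcd_dvd_left o x).trans (ho ▸ dvd_mul_left o 2)) (Nat.gcd_dvd_right o x)
    rcases (Nat.dvd_prime Nat.prime_two).1 h1 with h1 | h1
    · exact h1
    · exact absurd (h1 ▸ Nat.gcd_dvd_left o x) (fun h2 => Nat.not_even_iff_odd.2 hoo (even_iff_two_dvd.2 h2))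
  have h4' : ∀ d, d ∣ q ^ 4 + 1 → d ∣ q ^ 4 - 1 → d ∣ 2 := fun d a b => by
    have := Nat.dvd_sub a b
    rwa [show q ^ 4 + 1 - (q ^ 4 - 1) = 2 by have := Nat.one_le_pow 4 q hq1; omega] at this
  have e2 : (q ^ 2 + 1) * (q ^ 2 - 1) = q ^ 4 - 1 := by rw [← Nat.sq_sub_sq, one_pow, ← pow_mul]
  have hq' : Nat.Coprime o (q ^ 12) := by
    refine Nat.Coprime.pow_right 12 (Nat.Coprime.coprime_dvd_left (ho ▸ dvd_mul_left o 2) ?_)
    rw [pow_succ', Nat.coprime_comm]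
    simp
  have h6 : Nat.Coprime o (q ^ 6 - 1) := key fun d a b => h4' d a (by
    have h1 : d ∣ (q ^ 4 + 1) * q ^ 2 := a.mul_right _
    rw [show (q ^ 4 + 1) * q ^ 2 = (q ^ 6 - 1) + (q ^ 2 + 1) by
      have := Nat.one_le_pow 6 q hq1
      rw [Nat.add_mul, ← pow_add]
      norm_num
      omega] at h1
    exact ((Nat.dvd_add_right b).1 h1).trans (e2 ▸ dvd_mul_right _ _))
  have hall : Nat.Coprime o (q ^ 12 * (q ^ 4 - 1) * ((q ^ 2 - 1) * (q ^ 4 - 1) * (q ^ 6 - 1))) :=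
    (hq'.mul_right (key h4')).mul_right
      (((key fun d a b => h4' d a (b.trans (e2 ▸ dvd_mul_left _ _))).mul_right (key h4')).mul_right h6)
  have hd : m ∣ 2 * Nat.gcd o (q ^ 12 * (q ^ 4 - 1) * ((q ^ 2 - 1) * (q ^ 4 - 1) * (q ^ 6 - 1))) := by
    rw [← Nat.gcd_mul_left]
    exact Nat.dvd_gcd (ho ▸ h4) (by simpa [mul_assoc] using hc)
  rwa [hall.gcd_eq_one, mul_one] at hd

theorem half_dvd_lcm {q : ℕ} (hq : Odd q) : (q ^ 4 - 1) / 2 ∣ Nat.lcm (q ^ 2 + 1) (q ^ 2 - 1) := by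
  have e2 : (q ^ 2 + 1) * (q ^ 2 - 1) = q ^ 4 - 1 := by rw [← Nat.sq_sub_sq, one_pow, ← pow_mul]
  have hg : Nat.gcd (q ^ 2 + 1) (q ^ 2 - 1) ∣ 2 := by
    have := Nat.dvd_sub (Nat.gcd_dvd_left (q ^ 2 + 1) (q ^ 2 - 1)) (Nat.gcd_dvd_right (q ^ 2 + 1) (q ^ 2 - 1))
    rwa [show q ^ 2 + 1 - (q ^ 2 - 1) = 2 by have := Nat.one_le_pow 2 q hq.pos; omega] at this
  have he : 2 ∣ q ^ 4 - 1 := even_iff_two_dvd.1 (Nat.Odd.sub_odd hq.pow odd_one)
  refine Nat.dvd_of_mul_dvd_mul_left two_pos ?_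
  rw [Nat.mul_div_cancel' he, ← e2, ← Nat.gcd_mul_lcm (q ^ 2 + 1) (q ^ 2 - 1)]
  exact Nat.mul_dvd_mul_right hg _

/-- Each order of an element of a plus type `Ω₈` without fixed vectors divides a target. -/
theorem plus_bound (h2 : (2 : F) ≠ 0) {p : ℕ} [Fact p.Prime] [CharP F p] (hp : p ≠ 2) {G : Matrix (Fin 8) (Fin 8) F}
    (hGs : Gᵀ = G) (hGu : IsUnit G.det) (hpl : Pl 4 G) (x : ↥(pres G)) (hx : x ∈ commutator ↥(pres G)) {k r : ℕ}
    (hr : ¬ p ∣ r) (hm : orderOf x = p ^ k * r) (hfix : ∀ v, (x ^ p ^ k).1.1 *ᵥ v = v → v = 0) :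
    ∃ T ∈ tops (Nat.card F) p, orderOf x ∣ T := by
  have hpp : p.Prime := Fact.out
  have hq := odd_card h2
  have hpk : Odd (p ^ k) := (hpp.odd_of_ne_two hp).pow
  obtain ⟨w, hw⟩ : ∃ w, w = negOne G := ⟨_, rfl⟩
  have hww : ∀ u : ↥(pres G), u * w = w * u := fun u => Subtype.ext (Units.ext (by
    show u.1.1 * w.1.1 = w.1.1 * u.1.1
    rw [hw, negOne_val, Matrix.mul_neg, Matrix.mul_one, Matrix.neg_mul, Matrix.one_mul]))
  have hw2 : w * w = 1 := Subtype.ext (Units.ext (by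
    show w.1.1 * w.1.1 = 1
    rw [hw, negOne_val, neg_mul_neg, one_mul]))
  obtain ⟨g, hg⟩ : ∃ g, g = w * x ^ p ^ k := ⟨_, rfl⟩
  have h2r : ((2 * r : ℕ) : F) ≠ 0 := by
    push_cast; exact mul_ne_zero h2 (natCast_ne_zero_of_coprime (p := p) hr)
  obtain ⟨a, b, GA, G0, φ, y', hab, h1s, h2s, h1u, h2u, hsq, hφg, hfix', hdet, hneg, -, hnofix, hcomm⟩ :=
    decomp hGs hGu g h2r (by
      rw [hg, Commute.mul_pow (hww _).symm, pow_mul, ← pow_mul _ (p ^ k), ← mul_assoc, mul_comm (p ^ k) 2, mul_assoc,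
        ← hm, mul_comm 2 (orderOf x), pow_mul, pow_orderOf_eq_one, one_pow, mul_one, pow_two, hw2, one_pow])
  rw [Fintype.card_fin] at hab
  rw [← hw] at hneg
  obtain ⟨xA, x0, hx', -⟩ := hcomm x (by
    rw [hg, ← mul_assoc, hww x, mul_assoc, mul_assoc, ← pow_succ', ← pow_succ])
  obtain ⟨y0, hy0⟩ : ∃ y0, y0 = negOne G0 * y' := ⟨_, rfl⟩
  have hnegblock : negOne (Matrix.fromBlocks GA 0 0 G0) = blockHom GA G0 (negOne GA, negOne G0) :=
    Subtype.ext (Units.ext (by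
      rw [negOne_val, blockHom_apply, negOne_val, negOne_val, ← Matrix.fromBlocks_one, Matrix.fromBlocks_neg]
      simp))
  have hs : φ (x ^ p ^ k) = blockHom GA G0 (negOne GA, y0) := by
    rw [show x ^ p ^ k = w * g by rw [hg, ← mul_assoc, hw2, one_mul], map_mul, hneg, hφg, hnegblock, ← map_mul,
      Prod.mk_mul_mk, mul_one, hy0]
  have hpair : (xA ^ p ^ k, x0 ^ p ^ k) = (negOne GA, y0) := blockHom_injective (by rw [← hs, map_pow, hx', ← map_pow]; rfl)
  have hA : xA ^ p ^ k = negOne GA := congrArg Prod.fst hpair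
  have h0 : x0 ^ p ^ k = y0 := congrArg Prod.snd hpair
  have hy0m : ∀ v, y0.1.1 *ᵥ v = -v → v = 0 := fun v hv => hfix' v (by
    rw [hy0] at hv
    change ((negOne G0).1.1 * y'.1.1) *ᵥ v = -v at hv
    rw [negOne_val, Matrix.neg_mul, Matrix.one_mul, Matrix.neg_mulVec] at hv
    exact neg_inj.1 hv)
  have hy0p : ∀ v, y0.1.1 *ᵥ v = v → v = 0 := fun v hv => by
    have h := hnofix (x ^ p ^ k) hfix (Sum.elim 0 v) (by
      rw [hs, blockHom_apply, Matrix.fromBlocks_mulVec]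
      simp [hv])
    funext i; exact congrFun h (Sum.inr i)
  have hit : ∀ (e : F) v, x0.1.1 *ᵥ v = e • v → ∀ i : ℕ, x0.1.1 ^ i *ᵥ v = e ^ i • v := fun e v hv i => by
    induction i with
    | zero => simp
    | succ i ih => rw [pow_succ, ← Matrix.mulVec_mulVec, hv, Matrix.mulVec_smul, ih, smul_smul, pow_succ']
  have hy0v : y0.1.1 = x0.1.1 ^ p ^ k := by rw [← h0]; rfl
  have hx0p : ∀ v, x0.1.1 *ᵥ v = v → v = 0 := fun v hv => hy0p v (by
    rw [hy0v, hit 1 v (by rw [one_smul]; exact hv), one_pow, one_smul])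
  have hx0m : ∀ v, x0.1.1 *ᵥ v = -v → v = 0 := fun v hv => hy0m v (by
    rw [hy0v, hit (-1) v (by rw [neg_one_smul]; exact hv), hpk.neg_one_pow, neg_one_smul])
  obtain ⟨n, z, hbn, hzo, -, hzp, hzm, hzneg⟩ := exists_symp h2 h2s h2u x0 hx0p hx0m
  obtain ⟨-, -, -, -, hdety, -, -, -⟩ := exists_symp h2 h2s h2u y0 hy0p hy0m
  have haeven : Even a := by
    have hd : (φ (x ^ p ^ k)).1.1.det = 1 := by
      rw [hdet]; exact det_eq_one_of_mem_commutator (pow_mem hx _)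
    rw [hs, blockHom_apply, Matrix.det_fromBlocks_zero₁₂, hdety, mul_one, negOne_val, Matrix.det_neg, Matrix.det_one,
      mul_one, Fintype.card_fin] at hd
    by_contra ho
    rw [(Nat.not_even_iff_odd.1 ho).neg_one_pow] at hd
    exact h2 (by linear_combination -hd)
  have hA2 : ∀ c, a ≤ p ^ c + 1 → orderOf xA ∣ 2 * p ^ c := by
    intro c hc
    rcases Nat.eq_zero_or_pos a with ha0 | hapos
    · have := subsingleton_pres (by simpa using ha0) GA
      rw [Subsingleton.elim xA 1, orderOf_one]; exact one_dvd _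
    obtain ⟨v, hv⟩ : ∃ v, v = negOne GA * xA := ⟨_, rfl⟩
    have hvv : v.1.1 = -xA.1.1 := by
      rw [hv]; show (negOne GA).1.1 * xA.1.1 = _
      rw [negOne_val, Matrix.neg_mul, Matrix.one_mul]
    have hxk : xA.1.1 ^ p ^ k = -1 := by
      rw [← Units.val_pow_eq_pow_val, ← SubgroupClass.coe_pow, hA, negOne_val]
    have hvk : (v.1.1 - 1) ^ p ^ k = 0 := by
      have : Nonempty (Fin a) := ⟨⟨0, hapos⟩⟩
      rw [sub_pow_char_pow_of_commute p k (Commute.one_right _), one_pow, hvv, hpk.neg_pow, hxk, neg_neg, sub_self]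
    have hb := nil_bound h2 h1s h1u v hvk (by simpa using haeven) (by simpa using hapos)
    rw [Fintype.card_fin] at hb
    have hvc : v.1.1 ^ p ^ c = 1 := by
      have : Nonempty (Fin a) := ⟨⟨0, hapos⟩⟩
      have := pow_eq_zero_of_le (show a - 1 ≤ p ^ c by omega) hb
      rwa [sub_pow_char_pow_of_commute p c (Commute.one_right _), one_pow, sub_eq_zero] at this
    refine orderOf_dvd_of_pow_eq_one (Subtype.ext (Units.ext ?_))
    show xA.1.1 ^ (2 * p ^ c) = 1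
    rw [show xA.1.1 = -v.1.1 by rw [hvv, neg_neg], pow_mul, neg_sq, ← pow_mul, mul_comm, pow_mul, hvc, one_pow]
  have hord : orderOf x = Nat.lcm (orderOf xA) (orderOf z) := by
    rw [hzo, ← orderOf_blockHom, ← hx', MulEquiv.orderOf_eq]
  rcases Nat.eq_zero_or_pos n with hn0 | hnpos
  · have := subsingleton_pres (by simp; omega) G0
    rw [hzo, Subsingleton.elim x0 1, orderOf_one, Nat.lcm_one_right] at hord
    refine top_cases_zero hpp hp hq (c := if 7 ≤ p then 1 else 2) (hord ▸ hA2 _ ?_) le_rfl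
    split_ifs with h7
    · rw [pow_one]; omega
    · have := Nat.pow_le_pow_left (show 3 ≤ p by have := hpp.two_le; omega) 2
      omega
  obtain ⟨L, K, hK1, hKn, hL, hzdvd, c1, c2, c3, c4⟩ := sp_bound h2 p hnpos (by omega) z hzp hzm
  have hp9 : 9 ≤ p ^ 2 := by
    have := Nat.pow_le_pow_left (show 3 ≤ p by have := hpp.two_le; omega) 2
    omega
  have hcB : n + 1 ≤ K + p ^ expB p n K := by
    unfold expB; split_ifs <;> simp <;> omega
  have hcA : a ≤ p ^ expA p n + 1 := by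
    have := Nat.even_iff.1 haeven
    unfold expA; split_ifs <;> simp <;> omega
  have hmb : orderOf x ∣ L * p ^ max (expA p n) (expB p n K) := by
    rw [hord]
    exact Nat.lcm_dvd ((hA2 _ hcA).trans (Nat.mul_dvd_mul hL (pow_dvd_pow p (le_max_left _ _))))
      ((hzdvd _ hcB).trans (Nat.mul_dvd_mul_left L (pow_dvd_pow p (le_max_right _ _))))
  by_cases hlow : K = 4 → Low (Nat.card F) L
  · exact top_cases hpp hp (by omega) hK1 hKn hmb c1 c2 c3 hlow
  push Not at hlow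
  obtain ⟨hK4, hnlow⟩ := hlow
  subst hK4
  obtain rfl : n = 4 := by omega
  obtain rfl : a = 0 := by omega
  rw [show max (expA p 4) (expB p 4 4) = 0 by simp [expA, expB], pow_zero, mul_one] at hmb
  rcases (c4 rfl).resolve_left hnlow with h | ⟨h, hMz⟩
  · obtain ⟨e, he⟩ := CfsgLib.SemiClasses.exists_iso_plus (nondegenerate_formQ h2 hGs hGu) (m := 4) (by simp)
      ((hasHalf_iff_pl h2 hGs hGu (by norm_num) (by simp)).2 hpl)
    obtain ⟨ψ, hψ, -⟩ := CfsgLib.SpecEight.exists_congr e he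
    have hc : orderOf x ∣ Nat.card (CfsgLib.Forms.isom (CfsgLib.Forms.quadPlus F (3 + 1))) := by
      rw [← Nat.card_congr (CfsgLib.Forms.isoEquiv _).toEquiv,
        ← orderOf_injective ψ hψ (MulEquiv.subgroupCongr (pres_eq_isometryGroup h2 hGs).symm x) |>.trans
          (MulEquiv.orderOf_eq _ x)]
      exact orderOf_dvd_natCard _
    rw [CfsgLib.OrthOrder.card_isom_plus, ← Nat.card_eq_fintype_card] at hc
    simp only [Finset.prod_range_succ, Finset.prod_range_zero, one_mul] at hc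
    obtain ⟨d, hd⟩ : 2 ∣ Nat.card F ^ 2 - 1 := even_iff_two_dvd.1 (Nat.Odd.sub_odd hq.pow odd_one)
    exact ⟨p * (Nat.card F ^ 2 - 1), by simp [tops],
      (dvd_two_of_dvd_card hq (hmb.trans h) (by simpa using hc)).trans ⟨p * d, by rw [hd]; ring⟩⟩
  · by_cases hhalf : orderOf x ∣ (Nat.card F ^ 4 - 1) / 2
    · exact ⟨_, by simp [tops], hhalf.trans (half_dvd_lcm hq)⟩
    exfalso
    obtain ⟨c, hc⟩ := hmb.trans h
    have hco : Odd c := by
      by_contra hce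
      obtain ⟨d, hd⟩ := Nat.not_odd_iff_even.1 hce
      refine hhalf ⟨d, ?_⟩
      rw [hc, hd, ← two_mul, mul_left_comm, Nat.mul_div_cancel_left _ two_pos]
    have h2m : 2 ∣ orderOf x := by
      have he : 2 ∣ Nat.card F ^ 4 - 1 := even_iff_two_dvd.1 (Nat.Odd.sub_odd hq.pow odd_one)
      rw [hc] at he
      exact (Nat.Coprime.dvd_of_dvd_mul_right (Nat.coprime_two_left.2 hco) he)
    have hxA : xA = 1 := @Subsingleton.elim _ (subsingleton_pres (by simp) GA) _ _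
    rw [hxA, orderOf_one, Nat.lcm_one_left] at hord
    obtain ⟨M, hM⟩ := h2m
    have hx0M := hzneg M (hMz M (hord ▸ hM))
    have hxM : x ^ M = w := φ.injective (by
      rw [map_pow, hx', hneg, hnegblock, ← map_pow]
      refine congrArg _ (Prod.ext (@Subsingleton.elim _ (subsingleton_pres (by simp) GA) _ _)
        (Subtype.ext (Units.ext ?_)))
      exact hx0M)
    refine not_mem_of_half h2 hGs hGu (by simp) x ⟨M, hM⟩ (orderOf_pos x) (c := Nat.card F ^ 3 * c)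
      (hq.pow.mul hco) ?_ ?_ hx
    · rw [(lev_eq h2 hGs hGu (by norm_num) (by simp)).1 hpl, hc]; ring
    · rw [hM, Nat.mul_div_cancel_left _ two_pos, ← Units.val_pow_eq_pow_val, ← SubgroupClass.coe_pow, hxM, hw,
        negOne_val]

/-- Each order in `Ω₉` divides one in `V ⋊ Ω₈⁻`. -/
theorem sh_of_omel (h2 : (2 : F) ≠ 0) {p : ℕ} [Fact p.Prime] [CharP F p] (hp : p ≠ 2) {m : ℕ} (h : OmEl F 4 m) :
    ∃ T, SH F p T ∧ m ∣ T := by
  have hpp : p.Prime := Fact.out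
  obtain ⟨ι, _, _, G, hc, hGs, hGu, g, hg, rfl⟩ := h
  obtain ⟨k, r, hr, hm⟩ := split_order hpp (orderOf_pos g).ne'
  obtain ⟨s, hs⟩ : ∃ s, s = g ^ p ^ k := ⟨_, rfl⟩
  have hso : orderOf s = r := by
    rw [hs, orderOf_pow_of_dvd (pow_ne_zero _ hpp.ne_zero) (hm ▸ dvd_mul_right _ _), hm,
      Nat.mul_div_cancel_left _ (pow_pos hpp.pos k)]
  obtain ⟨a, b, G₁, G₂, φ, y, hab, h1s, h2s, h1u, h2u, -, hφs, hfix, -, -, -, -, hcomm⟩ :=
    decomp hGs hGu s (natCast_ne_zero_of_coprime (p := p) hr) (by rw [← hso]; exact pow_orderOf_eq_one s)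
  obtain ⟨u₁, u₂, hu, -⟩ := hcomm g (by rw [hs]; exact (Commute.self_pow g (p ^ k)).eq)
  have hpair : (u₁ ^ p ^ k, u₂ ^ p ^ k) = (1, y) :=
    blockHom_injective (by rw [← hφs, hs, map_pow, hu, ← map_pow]; rfl)
  have hu₁ : u₁ ^ p ^ k = 1 := congrArg Prod.fst hpair
  have hu₂ : u₂ ^ p ^ k = y := congrArg Prod.snd hpair
  have hab' : a + b = 9 := by omega
  have hGs' := fromBlocks_symm h1s h2s
  have hGu' := fromBlocks_unit h1u h2u
  have hu2m : u₂ ∈ commutator ↥(pres G₂) := by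
    rw [← block_right_mem h2 h1s h1u h2s h2u]
    have h1 : blockHom G₁ G₂ (u₁, 1) ∈ commutator ↥(pres (Matrix.fromBlocks G₁ 0 0 G₂)) := by
      refine odd_mem_of_sq_mem (sq_mem_commutator h2 hGs' hGu' (by simp; omega)) ?_
      rw [orderOf_blockHom, orderOf_one, Nat.lcm_one_right]
      exact (hpp.odd_of_ne_two hp).pow.of_dvd_nat (orderOf_dvd_of_pow_eq_one hu₁)
    have h2' : φ g ∈ commutator ↥(pres (Matrix.fromBlocks G₁ 0 0 G₂)) := mem_commutator_map φ hg
    rw [hu, show ((u₁, u₂) : _ × _) = (u₁, 1) * (1, u₂) by rw [Prod.mk_mul_mk, mul_one, one_mul], map_mul] at h2'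
    exact (Subgroup.mul_mem_cancel_left _ h1).1 h2'
  have hym : y ∈ commutator ↥(pres G₂) := hu₂ ▸ pow_mem hu2m _
  have hb : Even b := by
    have h := even_of_no_fix h2 h2u y (det_eq_one_of_mem_commutator hym) hfix
    rwa [Fintype.card_fin] at h
  have hbe := Nat.even_iff.1 hb
  have hlcm : orderOf g = Nat.lcm (orderOf u₁) (orderOf u₂) := by
    rw [← orderOf_blockHom, ← hu, MulEquiv.orderOf_eq]
  have ho1 : orderOf u₁ ∣ p ^ k := orderOf_dvd_of_pow_eq_one hu₁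
  have hnil : (u₁.1.1 - 1) ^ a = 0 := by
    rcases Nat.eq_zero_or_pos a with ha0 | hapos
    · subst ha0; exact Subsingleton.elim _ _
    have : Nonempty (Fin a) := ⟨⟨0, hapos⟩⟩
    have h := nil_card (M := u₁.1.1 - 1) (j := p ^ k) (by
      rw [sub_pow_char_pow_of_commute p k (Commute.one_right _), one_pow, sub_eq_zero, ← Units.val_pow_eq_pow_val,
        ← SubgroupClass.coe_pow, hu₁]; rfl)
    rwa [Fintype.card_fin] at h
  by_cases ha : 3 ≤ a
  · by_cases hfull : orderOf u₂ = orderOf g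
    · exact ⟨_, sh_of_block h2 p h2s h2u (by simp; omega) u₂ hu2m, hfull ▸ dvd_rfl⟩
    have hr2 : r ∣ orderOf u₂ := by
      have hyo : orderOf y = r := by
        rw [← hso, ← MulEquiv.orderOf_eq φ, hφs, orderOf_blockHom, orderOf_one, Nat.lcm_one_left]
      rw [← hyo, ← hu₂]; exact orderOf_pow_dvd _
    obtain ⟨c, hc'⟩ := hr2
    have hck : c ∣ p ^ k := by
      have h : r * c ∣ r * p ^ k := by
        rw [← hc', mul_comm r, ← hm, hlcm]; exact Nat.dvd_lcm_right _ _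
      exact Nat.dvd_of_mul_dvd_mul_left (Nat.pos_of_ne_zero fun h0 => hr (by rw [h0]; exact dvd_zero p)) h
    obtain ⟨i, hi, rfl⟩ := (Nat.dvd_prime_pow hpp).1 hck
    have hik : i < k := lt_of_le_of_ne hi fun h => hfull (by rw [hc', h, hm, mul_comm])
    obtain ⟨j, rfl⟩ : ∃ j, k = j + 1 := ⟨k - 1, by omega⟩
    have hd : orderOf u₂ ∣ r * p ^ j := hc' ▸ Nat.mul_dvd_mul_left r (pow_dvd_pow p (by omega))
    have hne : u₁.1.1 ^ p ^ j ≠ 1 := fun h => by
      have h1 : orderOf g ∣ p ^ j * r := by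
        rw [hlcm]
        exact Nat.lcm_dvd ((orderOf_dvd_of_pow_eq_one (Subtype.ext (Units.ext h))).trans (dvd_mul_right _ _))
          (by rwa [mul_comm])
      rw [hm] at h1
      have := Nat.le_of_dvd (pow_pos hpp.pos j) (Nat.dvd_of_mul_dvd_mul_right
        (Nat.pos_of_ne_zero fun h0 => hr (by rw [h0]; exact dvd_zero p)) h1)
      exact absurd this (not_le.2 (Nat.pow_lt_pow_right hpp.one_lt (by omega)))
    have hja : p ^ j < a := by
      by_contra hle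
      have : Nonempty (Fin a) := ⟨⟨0, by omega⟩⟩
      have h := pow_eq_zero_of_le (Nat.le_of_not_lt hle) hnil
      rw [sub_pow_char_pow_of_commute p j (Commute.one_right _), one_pow, sub_eq_zero] at h
      exact hne h
    have hjodd := Nat.odd_iff.1 ((hpp.odd_of_ne_two hp).pow (n := j))
    refine ⟨_, sh_of_fixed h2 hp h2s h2u u₂ hu2m (j := j) hr hd (by simp; omega), ?_⟩
    rw [hm, pow_succ', mul_assoc, mul_comm (p ^ j) r]
    refine Nat.mul_dvd_mul_left p (((hpp.coprime_iff_not_dvd.2 hr).symm.pow_right j).mul_dvd_of_dvd_of_dvd ?_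
      (Nat.dvd_lcm_right _ _))
    exact (hc' ▸ dvd_mul_right r _).trans (Nat.dvd_lcm_left _ _)
  obtain rfl : a = 1 := by omega
  obtain rfl : b = 8 := by omega
  have hu1 : u₁ = 1 := by
    refine Subtype.ext (Units.ext ?_)
    rw [pow_one, sub_eq_zero] at hnil
    exact hnil
  rw [hu1, orderOf_one, Nat.lcm_one_left] at hlcm
  by_cases hpl : Pl 4 G₂
  · obtain ⟨T, hT, hd⟩ := plus_bound h2 hp h2s h2u hpl u₂ hu2m hr (hlcm ▸ hm)
      (fun v hv => hfix v (by rw [← hu₂]; exact hv))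
    obtain ⟨N, hN, hTN⟩ := sh_tops h2 hp T hT
    exact ⟨N, hN, hlcm ▸ hd.trans hTN⟩
  · exact ⟨orderOf u₂, ⟨Fin 8, inferInstance, inferInstance, G₂, u₂, Fintype.card_fin 8, h2s, h2u, hpl, hu2m,
      Or.inl rfl⟩, hlcm ▸ dvd_rfl⟩

end CfsgLib.SpecNine
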