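import Cfsg.Agent.PrimeGraphBC.Build
import Cfsg.Agent.Forms.TypeDisc
import Cfsg.Agent.SemiClasses.HalfSum
import Cfsg.Agent.OrthOrder.Orders
import Mathlib.GroupTheory.Perm.Cycle.Type

/-!
Types of even dimensional orthogonal spaces, blocks in `Ω`, and a sign criterion for non-membership in `Ω`.
-/

set_option autoImplicit false
set_option linter.unusedSectionVars false

namespace CfsgLib.SpecNine

open Matrix QuadraticMap CfsgLib.PrimeGraphBC CfsgLib.Forms CfsgLib.SemiClasses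
open scoped Classical

variable {F : Type*} [Field F] [Fintype F]
variable {ι κ : Type} [Fintype ι] [DecidableEq ι] [Fintype κ] [DecidableEq κ]

theorem nonsquare_exists (h2 : (2 : F) ≠ 0) : ∃ ν : F, ¬ IsSquare ν :=
  FiniteField.exists_nonsquare fun h => h2 (by have := ringChar.eq_iff.1 h; exact CharTwo.two_eq_zero)

theorem natCard_ne_two (h2 : (2 : F) ≠ 0) : Nat.card F ≠ 2 := CfsgLib.Forms.natCard_ne_two h2

/-- Plus type, in dimension `2 w`. -/
def Pl (w : ℕ) (G : Matrix ι ι F) : Prop := IsSquare ((-1 : F) ^ w * G.det)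

theorem hasHalf_iff_pl (h2 : (2 : F) ≠ 0) {G : Matrix ι ι F} (hGs : Gᵀ = G) (hGu : IsUnit G.det) {w : ℕ} (hw : 1 ≤ w)
    (hc : Fintype.card ι = 2 * w) : HasHalf (formQ G) ↔ Pl w G := by
  have hS : (Matrix.toBilin' G).IsSymm := ⟨fun x y => by
    rw [Matrix.toBilin'_apply', Matrix.toBilin'_apply', Matrix.dotProduct_mulVec, ← Matrix.mulVec_transpose, hGs,
      dotProduct_comm]⟩
  have hB : (Matrix.toBilin' G).Nondegenerate :=
    LinearMap.BilinForm.nondegenerate_toBilin'_iff_det_ne_zero.2 hGu.ne_zero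
  have hV : Module.finrank F (ι → F) = 2 * w := by rw [Module.finrank_fintype_fun_eq_card, hc]
  have key := exists_isotropic_half_iff h2 hS hB hw hV (Pi.basisFun F ι)
  have e : LinearMap.BilinForm.toMatrix (Pi.basisFun F ι) (Matrix.toBilin' G) = G := by
    ext i j; simp
  rw [e] at key
  rw [Pl, ← key]
  constructor
  · rintro ⟨S, hS0, hd⟩
    obtain ⟨T, hTS, hTd⟩ : ∃ T : Submodule F (ι → F), T ≤ S ∧ Module.finrank F T = w := by
      obtain ⟨f, hf⟩ := exists_linearIndependent_of_le_finrank (R := F) (M := S) (n := w) (by omega)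
      refine ⟨Submodule.span F (Set.range fun i => (f i : ι → F)), Submodule.span_le.2 ?_, ?_⟩
      · rintro _ ⟨i, rfl⟩; exact (f i).2
      · rw [finrank_span_eq_card]
        · exact Fintype.card_fin w
        · exact hf.map' S.subtype (Submodule.ker_subtype S)
    refine ⟨T, hTd, fun x hx y hy => ?_⟩
    have h := polar_formQ hGs x y
    rw [polar, hS0 _ (hTS hx), hS0 _ (hTS hy), hS0 _ (hTS (add_mem hx hy)), sub_zero, sub_zero, Matrix.smul_mulVec,
      dotProduct_smul, smul_eq_mul] at h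
    rw [Matrix.toBilin'_apply']
    exact (mul_eq_zero.1 h).resolve_left h2
  · rintro ⟨X, hXd, hX⟩
    exact ⟨X, fun v hv => by rw [formQ_apply, ← Matrix.toBilin'_apply']; exact hX v hv v hv, by omega⟩

/-- The number of vectors of value one. -/
noncomputable def lev (G : Matrix ι ι F) : ℕ := Nat.card {v : ι → F // formQ G v = 1}

theorem lev_eq (h2 : (2 : F) ≠ 0) {G : Matrix ι ι F} (hGs : Gᵀ = G) (hGu : IsUnit G.det) {w : ℕ} (hw : 1 ≤ w)
    (hc : Fintype.card ι = 2 * w) :
    (Pl w G → lev G = Nat.card F ^ (w - 1) * (Nat.card F ^ w - 1)) ∧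
      (¬ Pl w G → lev G = Nat.card F ^ (w - 1) * (Nat.card F ^ w + 1)) := by
  rw [← hasHalf_iff_pl h2 hGs hGu hw hc, Nat.card_eq_fintype_card (α := F)]
  have hQ := nondegenerate_formQ h2 hGs hGu
  refine ⟨fun h => ?_, fun h => ?_⟩
  · obtain ⟨g, hg⟩ := exists_iso_plus hQ hc h
    have e : lev G = Nat.card {p : (Fin w → F) × (Fin w → F) // ∑ i, p.1 i * p.2 i = 1} :=
      Nat.card_congr (Equiv.subtypeEquiv (g.toEquiv.trans (Equiv.sumArrowEquivProdArrow _ _ _)) fun v => by
        rw [← hg v]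
        simp [Cfsg.quadFormPlus, Equiv.sumArrowEquivProdArrow])
    let e' : {p : (Fin w → F) × (Fin w → F) // ∑ i, p.1 i * p.2 i = 1} ≃
        Σ x : Fin w → F, {y : Fin w → F // ∑ i, x i * y i = 1} :=
      Equiv.subtypeProdEquivSigmaSubtype fun (x y : Fin w → F) => ∑ i, x i * y i = 1
    rw [e, Nat.card_congr e', Nat.card_sigma, ← Finset.add_sum_erase _ _ (Finset.mem_univ (0 : Fin w → F))]
    have hz : IsEmpty {y : Fin w → F // ∑ i, (0 : Fin w → F) i * y i = 1} := ⟨fun y => by simpa using y.2⟩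
    rw [Nat.card_of_isEmpty, zero_add,
      Finset.sum_congr rfl (fun x hx => OrthOrder.card_dot_eq (Finset.ne_of_mem_erase hx) 1), Finset.sum_const,
      smul_eq_mul, Finset.card_erase_of_mem (Finset.mem_univ _), Finset.card_univ, Fintype.card_fun, Fintype.card_fin,
      Nat.mul_comm]
  · obtain ⟨c, hc'⟩ := exists_irreducible_quadratic F
    have hab := anis_of_irred hc'
    obtain ⟨-, g, hg⟩ := exists_iso_minus hQ hc h hab
    obtain ⟨m, rfl⟩ : ∃ m, w = m + 1 := ⟨w - 1, by omega⟩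
    have hb : Nat.card {z : Fin 2 → F // z 0 ^ 2 + 1 * z 0 * z 1 + c * z 1 ^ 2 - 1 = 0} = Fintype.card F + 1 := by
      rw [← Nat.card_eq_fintype_card, ← OrthOrder.card_level_binary hab (one_ne_zero : (1 : F) ≠ 0)]
      refine Nat.card_congr (Equiv.subtypeEquiv
        ((Equiv.uniqueProd (Fin 2 → F) ((Fin 0 ⊕ Fin 0) → F)).symm.trans (Equiv.sumArrowEquivProdArrow _ _ _).symm)
          fun z => ?_)
      rw [sub_eq_zero]
      simp [Cfsg.quadFormMinus, Equiv.sumArrowEquivProdArrow]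
    have h0 := OrthOrder.card_zero_hyp (F := F) m (fun z : Fin 2 → F => z 0 ^ 2 + 1 * z 0 * z 1 + c * z 1 ^ 2 - 1)
    rw [hb, Nat.card_fun, Nat.card_eq_fintype_card (α := F), Nat.card_fin] at h0
    have e : lev G = Nat.card {p : ((Fin m → F) × (Fin m → F)) × (Fin 2 → F) //
        (∑ i, p.1.1 i * p.1.2 i) + (p.2 0 ^ 2 + 1 * p.2 0 * p.2 1 + c * p.2 1 ^ 2 - 1) = 0} :=
      Nat.card_congr (Equiv.subtypeEquiv (g.toEquiv.trans ((Equiv.sumArrowEquivProdArrow _ _ _).trans
        (Equiv.prodCongr (Equiv.sumArrowEquivProdArrow _ _ _) (Equiv.refl _)))) fun v => by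
        rw [← hg v, ← add_sub_assoc, sub_eq_zero]
        simp [Cfsg.quadFormMinus, Equiv.sumArrowEquivProdArrow])
    rw [e, h0, Nat.add_sub_cancel]
    rcases Nat.eq_zero_or_pos m with rfl | hm
    · simp
    obtain ⟨j, rfl⟩ : ∃ j, m = j + 1 := ⟨m - 1, by omega⟩
    have hq : 1 ≤ Fintype.card F ^ (j + 1) := Nat.one_le_pow _ _ Fintype.card_pos
    obtain ⟨A, hA⟩ := Nat.exists_eq_add_of_le hq
    rw [Nat.add_sub_cancel, hA, Nat.add_sub_cancel_left, pow_succ _ (j + 1), hA]
    rw [pow_succ] at hA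
    calc A * Fintype.card F ^ j * Fintype.card F ^ 2 + (1 + A) * (Fintype.card F + 1)
        = A * (Fintype.card F ^ j * Fintype.card F) * Fintype.card F + (1 + A) * (Fintype.card F + 1) := by ring
      _ = _ := by rw [hA]; ring

/-- Reindexing a group of a form. -/
theorem exists_reindex {G : Matrix ι ι F} (e : κ ≃ ι) :
    ∃ φ : ↥(pres G) ≃* ↥(pres (G.submatrix e e)), ∀ g, (φ g).1.1 = g.1.1.submatrix e e := by
  obtain ⟨φ, hφ⟩ := pres_equiv (G := G) (B := G.submatrix e e) ((1 : Matrix ι ι F).submatrix e id)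
    ((1 : Matrix ι ι F).submatrix id e) (by simp [← Matrix.submatrix_mul _ _ _ _ _ Function.bijective_id])
    (by rw [Matrix.submatrix_mul_equiv]; simp) one_ne_zero (by
      rw [one_smul, Matrix.transpose_submatrix, Matrix.transpose_one, Matrix.submatrix_mul_equiv,
        Matrix.submatrix_mul_equiv]
      simp)
  exact ⟨φ, fun g => by rw [hφ]; ext i j; simp [Matrix.mul_apply, Matrix.one_apply]⟩

theorem mem_comm_iff {A B : Type*} [Group A] [Group B] (e : A ≃* B) (x : A) :
    e x ∈ commutator B ↔ x ∈ commutator A :=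
  ⟨fun h => by simpa using mem_commutator_map e.symm h, mem_commutator_map e⟩

theorem mem_comm_congr {H K : Subgroup (GL ι F)} (h : H = K) (x : H) :
    (MulEquiv.subgroupCongr h x) ∈ commutator K ↔ x ∈ commutator H := mem_comm_iff _ x

theorem formQ_fromBlocks {G₁ : Matrix ι ι F} {G₂ : Matrix κ κ F} :
    formQ (Matrix.fromBlocks G₁ 0 0 G₂) = sumForm (formQ G₁) (formQ G₂) := by
  ext v
  rw [formQ_apply, sumForm_apply, formQ_apply, formQ_apply, fromBlocks_one_mulVec]
  conv_lhs => arg 1; rw [← Sum.elim_comp_inl_inr v]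
  rw [sumElim_dotProduct_sumElim]

/-- A left block is in `Ω` of the sum exactly when it is in `Ω`. -/
theorem block_left_mem (h2 : (2 : F) ≠ 0) {G₁ : Matrix ι ι F} {G₂ : Matrix κ κ F} (h1s : G₁ᵀ = G₁)
    (h1u : IsUnit G₁.det) (h2s : G₂ᵀ = G₂) (h2u : IsUnit G₂.det) (g : ↥(pres G₁)) :
    PrimeGraphBC.blockHom G₁ G₂ (g, 1) ∈ commutator ↥(pres (Matrix.fromBlocks G₁ 0 0 G₂)) ↔
      g ∈ commutator ↥(pres G₁) := by
  have e1 := pres_eq_isometryGroup h2 h1s
  have e3 := pres_eq_isometryGroup h2 (B := Matrix.fromBlocks G₁ 0 0 G₂) (fromBlocks_symm h1s h2s)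
  rw [formQ_fromBlocks] at e3
  rw [← mem_comm_congr e1.symm g, ← mem_comm_congr e3.symm]
  rw [show MulEquiv.subgroupCongr e3.symm (PrimeGraphBC.blockHom G₁ G₂ (g, 1)) =
    Forms.blockHom (formQ G₁) (formQ G₂) (MulEquiv.subgroupCongr e1.symm g, 1) from Subtype.ext (Units.ext rfl)]
  exact blockHom_left_mem_iff (nondegenerate_formQ h2 h1s h1u) (nondegenerate_formQ h2 h2s h2u)
    (Or.inl (natCard_ne_two h2)) (Or.inl (natCard_ne_two h2)) _

/-- A right block is in `Ω` of the sum exactly when it is in `Ω`. -/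
theorem block_right_mem (h2 : (2 : F) ≠ 0) {G₁ : Matrix ι ι F} {G₂ : Matrix κ κ F} (h1s : G₁ᵀ = G₁)
    (h1u : IsUnit G₁.det) (h2s : G₂ᵀ = G₂) (h2u : IsUnit G₂.det) (g : ↥(pres G₂)) :
    PrimeGraphBC.blockHom G₁ G₂ (1, g) ∈ commutator ↥(pres (Matrix.fromBlocks G₁ 0 0 G₂)) ↔
      g ∈ commutator ↥(pres G₂) := by
  obtain ⟨φ, hφ⟩ := exists_reindex (G := Matrix.fromBlocks G₁ 0 0 G₂) (Equiv.sumComm κ ι)
  have e : (Matrix.fromBlocks G₁ 0 0 G₂).submatrix (Equiv.sumComm κ ι) (Equiv.sumComm κ ι) =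
      Matrix.fromBlocks G₂ 0 0 G₁ := by ext (i | i) (j | j) <;> rfl
  rw [← mem_comm_iff (φ.trans (MulEquiv.subgroupCongr (congrArg pres e))), ← block_left_mem h2 h2s h2u h1s h1u g]
  refine Iff.of_eq (congrArg (· ∈ _) (Subtype.ext (Units.ext ((hφ _).trans ?_))))
  ext (i | i) (j | j) <;> rfl

theorem det_mul_self_eq_one {G : Matrix ι ι F} (hGu : IsUnit G.det) (x : ↥(pres G)) :
    x.1.1.det * x.1.1.det = 1 := by
  have h := congrArg Matrix.det (mem_pres.1 x.2)
  rw [Matrix.det_mul, Matrix.det_mul, Matrix.det_transpose] at h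
  exact mul_right_cancel₀ hGu.ne_zero (by linear_combination h)

/-- Two elements of determinant one outside `Ω` have product in `Ω`. -/
theorem mul_mem_of_not (h2 : (2 : F) ≠ 0) {G : Matrix ι ι F} (hGs : Gᵀ = G) (hGu : IsUnit G.det)
    (hdim : 2 ≤ Fintype.card ι) {x y : ↥(pres G)} (hx : x.1.1.det = 1) (hy : y.1.1.det = 1)
    (hx' : x ∉ commutator ↥(pres G)) (hy' : y ∉ commutator ↥(pres G)) : x * y ∈ commutator ↥(pres G) := by
  revert x y
  rw [← pres_eq_isometryGroup h2 hGs]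
  intro x y hx hy hx' hy'
  have key := fun z => mem_Omega_iff_kernels (formQ G) h2 (nondegenerate_formQ h2 hGs hGu) hdim z
  have hdx := (detSign_eq_one_iff (formQ G) h2 (nondegenerate_formQ h2 hGs hGu) x).2 hx
  have hdy := (detSign_eq_one_iff (formQ G) h2 (nondegenerate_formQ h2 hGs hGu) y).2 hy
  change ¬ x ∈ Cfsg.Omega F ⇑(formQ G) at hx'
  change ¬ y ∈ Cfsg.Omega F ⇑(formQ G) at hy'
  show x * y ∈ Cfsg.Omega F ⇑(formQ G)
  rw [key] at hx' hy' ⊢
  rw [map_mul, map_mul, map_mul, hdx, hdy]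
  have hsx := (Int.units_eq_one_or _).resolve_left fun h => hx' ⟨hdx, h⟩
  have hsy := (Int.units_eq_one_or _).resolve_left fun h => hy' ⟨hdy, h⟩
  rw [hsx, hsy]
  decide

/-- A permutation of order dividing `E` all of whose nontrivial powers below `E` have no fixed point. -/
theorem cycleType_of_free {α : Type*} [Fintype α] [DecidableEq α] (σ : Equiv.Perm α) {E : ℕ} (hE : 2 ≤ E)
    (hσ : σ ^ E = 1) (hfree : ∀ i, 1 ≤ i → i < E → ∀ x, (σ ^ i) x ≠ x) :
    ∃ k, σ.cycleType = Multiset.replicate k E ∧ k * E = Fintype.card α := by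
  have hall : ∀ c ∈ σ.cycleType, c = E := by
    intro c hc
    have hd := (Equiv.Perm.dvd_of_mem_cycleType hc).trans (orderOf_dvd_of_pow_eq_one hσ)
    have h2c := Equiv.Perm.two_le_of_mem_cycleType hc
    by_contra hne
    rw [Equiv.Perm.cycleType_def, Multiset.mem_map] at hc
    obtain ⟨τ, hτ, rfl⟩ := hc
    have hτc := (Equiv.Perm.mem_cycleFactorsFinset_iff.1 hτ).1
    obtain ⟨x, hx⟩ := Finset.card_pos.1 (by simp only [Function.comp_apply] at h2c; omega : 0 < τ.support.card)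
    refine hfree _ (by omega) (lt_of_le_of_ne (Nat.le_of_dvd (by omega) hd) hne) x ?_
    rw [← Equiv.Perm.cycleOf_pow_apply_self, ← Equiv.Perm.cycle_is_cycleOf hx hτ, Function.comp_apply,
      ← hτc.orderOf, pow_orderOf_eq_one]
    rfl
  refine ⟨Multiset.card σ.cycleType, Multiset.eq_replicate_card.2 hall, ?_⟩
  have hsum := σ.sum_cycleType
  rw [Multiset.eq_replicate_card.2 hall, Multiset.sum_replicate, smul_eq_mul] at hsum
  rw [hsum, show σ.support = Finset.univ from Finset.eq_univ_of_forall fun x => Equiv.Perm.mem_support.2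
    (by simpa using hfree 1 le_rfl hE x), Finset.card_univ]

/-- An element acting freely divides the number of vectors of value one. -/
theorem dvd_lev {G : Matrix ι ι F} (h2 : (2 : F) ≠ 0) (hGs : Gᵀ = G) (x : ↥(pres G)) {E : ℕ} (hE : 2 ≤ E)
    (hx : x ^ E = 1) (hfree : ∀ i, 1 ≤ i → i < E → ∀ v, (x ^ i).1.1 *ᵥ v = v → v = 0) : E ∣ lev G := by
  let y := isoEquiv (formQ G) (MulEquiv.subgroupCongr (pres_eq_isometryGroup h2 hGs).symm x)
  obtain ⟨k, -, hk⟩ := cycleType_of_free (levelPerm (formQ G) y) hE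
    (by rw [← map_pow, ← map_pow, ← map_pow, hx, map_one, map_one, map_one])
    fun i h1 hi v hv => by
      have h := congrArg Subtype.val hv
      rw [← map_pow, ← map_pow, ← map_pow] at h
      have h' : (x ^ i).1.1 *ᵥ v.1 = v.1 := by
        refine Eq.trans ?_ h
        show _ = ((isoEquiv (formQ G) _ : isom (formQ G)) : (ι → F) ≃ₗ[F] (ι → F)) v.1
        rw [coe_isoEquiv, glEquiv_apply]
        rfl
      have := hfree i h1 hi v.1 h'
      have h1' := v.2
      rw [this, QuadraticMap.map_zero] at h1'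
      exact zero_ne_one h1'
  exact ⟨k, by rw [lev, Nat.card_eq_fintype_card, ← hk, Nat.mul_comm]⟩

/-- An element with `x ^ 2 ^ (N - 1) = -1` and an odd number of orbits on the vectors of value one. -/
theorem not_mem_of_free (h2 : (2 : F) ≠ 0) {G : Matrix ι ι F} (hGs : Gᵀ = G) (hGu : IsUnit G.det)
    (hdim : 2 ≤ Fintype.card ι) (x : ↥(pres G)) {N : ℕ} (hx : x.1.1 ^ 2 ^ N = -1) {k : ℕ} (hk : Odd k)
    (hlev : lev G = k * 2 ^ (N + 1)) : x ∉ commutator ↥(pres G) := by
  intro hmem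
  obtain ⟨y, hy⟩ : ∃ y, y = MulEquiv.subgroupCongr (pres_eq_isometryGroup h2 hGs).symm x := ⟨_, rfl⟩
  have hy' : y ∈ Cfsg.Omega F ⇑(formQ G) := hy ▸ (mem_comm_congr _ x).2 hmem
  obtain ⟨hd, hs⟩ := (mem_Omega_iff_kernels (formQ G) h2 (nondegenerate_formQ h2 hGs hGu) hdim y).1 hy'
  have hyv : (y : GL ι F).1 = x.1.1 := by rw [hy]; rfl
  have happ : ∀ (i : ℕ) (v : {v // formQ G v = 1}),
      ((levelPerm (formQ G) (isoEquiv (formQ G) y) ^ i) v).1 = x.1.1 ^ i *ᵥ v.1 := by
    intro i v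
    induction i with
    | zero => simp
    | succ i ih =>
      rw [pow_succ', Equiv.Perm.mul_apply, pow_succ', ← Matrix.mulVec_mulVec, ← ih, ← hyv]
      show ((isoEquiv (formQ G) y : isom (formQ G)) : (ι → F) ≃ₗ[F] (ι → F)) _ = _
      rw [coe_isoEquiv, glEquiv_apply]
  have hneg : ∀ v : {v // formQ G v = 1}, (levelPerm (formQ G) (isoEquiv (formQ G) y) ^ 2 ^ N) v ≠ v := by
    intro v hv
    have h := congrArg Subtype.val hv
    rw [happ, hx, Matrix.neg_mulVec, Matrix.one_mulVec] at h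
    have h0 : v.1 = 0 := funext fun i => by
      have hi := congrFun h i
      simp only [Pi.neg_apply] at hi
      exact (mul_eq_zero.1 (by linear_combination -hi : (2 : F) * v.1 i = 0)).resolve_left h2
    have h1 := v.2
    rw [h0, QuadraticMap.map_zero] at h1
    exact zero_ne_one h1
  obtain ⟨σ, hσ⟩ : ∃ σ, σ = levelPerm (formQ G) (isoEquiv (formQ G) y) := ⟨_, rfl⟩
  rw [← hσ] at happ hneg
  obtain ⟨j, hj, hjn⟩ := cycleType_of_free σ (E := 2 ^ (N + 1)) (Nat.le_self_pow (by omega) 2)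
    (Equiv.ext fun v => Subtype.ext (by
      rw [happ, pow_succ, pow_mul, hx, neg_one_sq, Matrix.one_mulVec]; rfl))
    fun i h1 hi v hv => by
      obtain ⟨t, m, hm, rfl⟩ := Nat.exists_eq_two_pow_mul_odd (Nat.one_le_iff_ne_zero.1 h1)
      have ht : t ≤ N := by
        by_contra hlt
        have := Nat.pow_le_pow_right (show 2 > 0 by norm_num) (show N + 1 ≤ t by omega)
        have := Nat.le_mul_of_pos_right (2 ^ t) hm.pos
        omega
      refine hneg v ?_
      obtain ⟨r, hr⟩ : ∃ r, r = (σ ^ 2 ^ N) := ⟨_, rfl⟩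
      have hrv : (r ^ m) v = v := by
        rw [hr, ← pow_mul, show 2 ^ N * m = 2 ^ t * m * 2 ^ (N - t) by
          rw [mul_right_comm, ← pow_add, Nat.add_sub_cancel' ht], pow_mul]
        exact Equiv.Perm.pow_apply_eq_self_of_apply_eq_self hv _
      have hr2 : r ^ 2 = 1 := by
        rw [hr, ← pow_mul, ← pow_succ]
        exact Equiv.ext fun w => Subtype.ext (by
          rw [happ, pow_succ, pow_mul, hx, neg_one_sq, Matrix.one_mulVec]; rfl)
      obtain ⟨l, rfl⟩ := hm
      rw [pow_succ, pow_mul, hr2, one_pow, one_mul] at hrv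
      rw [← hr]; exact hrv
  have hcard : Fintype.card {v // formQ G v = 1} = lev G := by rw [lev, Nat.card_eq_fintype_card]
  rw [hcard, hlev] at hjn
  have hjk : j = k := Nat.eq_of_mul_eq_mul_right (by positivity) hjn
  have hsign : Equiv.Perm.sign σ = -1 := by
    rw [Equiv.Perm.sign_of_cycleType, hj, Multiset.sum_replicate, Multiset.card_replicate, smul_eq_mul, hjk,
      pow_add, hk.neg_one_pow, Even.neg_one_pow ((even_two.pow_of_ne_zero (by omega)).mul_left k), one_mul]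
  have hspin : spin h2 (nondegenerate_formQ h2 hGs hGu) (isoEquiv (formQ G) y) = -1 := by
    unfold spin
    rw [MonoidHom.mul_apply, MonoidHom.comp_apply, hd, mul_one, ← hσ]
    convert hsign
  rw [hs] at hspin
  exact absurd hspin (by decide)

end CfsgLib.SpecNine
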