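import Cfsg.Agent.SpecNine.Basic

/-!
Orthogonal decompositions attached to a semisimple element.
-/

set_option autoImplicit false
set_option linter.unusedSectionVars false

namespace CfsgLib.SpecNine

open Matrix QuadraticMap CfsgLib.PrimeGraphBC
open scoped Classical

variable {F : Type*} [Field F] [Fintype F] {ι : Type} [Fintype ι] [DecidableEq ι]

/-- The element `-1`. -/
def negOne (G : Matrix ι ι F) : ↥(pres G) := ⟨-1, by rw [mem_pres]; simp⟩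

theorem negOne_val (G : Matrix ι ι F) : (negOne G).1.1 = -1 := rfl

theorem nil_card {M : Matrix ι ι F} {j : ℕ} (h : M ^ j = 0) : M ^ Fintype.card ι = 0 := by
  have h1 := Matrix.isNilpotent_charpoly_sub_pow_of_isNilpotent (M := M) ⟨j, h⟩
  have h2 := congrArg (Polynomial.aeval M) (sub_eq_zero.1 h1.eq_zero)
  rw [Matrix.aeval_self_charpoly, map_pow, Polynomial.aeval_X] at h2
  exact h2.symm

theorem even_of_no_fix (h2' : (2 : F) ≠ 0) {G : Matrix ι ι F} (hGu : IsUnit G.det) (y : ↥(pres G)) (hd : y.1.1.det = 1)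
    (hfix : ∀ v, y.1.1 *ᵥ v = v → v = 0) : Even (Fintype.card ι) := by
  by_contra hodd
  rw [Nat.not_even_iff_odd] at hodd
  have hne : (y.1.1 - 1).det ≠ 0 := fun h0 => by
    obtain ⟨v, hv0, hv⟩ := Matrix.exists_mulVec_eq_zero_iff.mpr h0
    rw [Matrix.sub_mulVec, Matrix.one_mulVec, sub_eq_zero] at hv
    exact hv0 (hfix v hv)
  have h : y.1.1ᵀ * G * (y.1.1 - 1) = -((y.1.1 - 1)ᵀ * G) := by
    rw [Matrix.mul_sub, mem_pres.1 y.2, Matrix.mul_one, transpose_sub, transpose_one, Matrix.sub_mul, Matrix.one_mul]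
    abel
  have h' := congrArg Matrix.det h
  rw [Matrix.det_neg, Matrix.det_mul, Matrix.det_mul, Matrix.det_mul, Matrix.det_transpose, Matrix.det_transpose, hd,
    hodd.neg_one_pow] at h'
  have h2 : (2 : F) * (y.1.1 - 1).det * G.det = 0 := by linear_combination h'
  exact hne ((mul_eq_zero.1 ((mul_eq_zero.1 h2).resolve_right hGu.ne_zero)).resolve_left h2')

/-- A unipotent isometry of an even dimensional space has no Jordan block of full size. -/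
theorem nil_bound (h2 : (2 : F) ≠ 0) {G : Matrix ι ι F} (hGs : Gᵀ = G) (hGu : IsUnit G.det) (u : ↥(pres G)) {j : ℕ}
    (hu : (u.1.1 - 1) ^ j = 0) (heven : Even (Fintype.card ι)) (hpos : 0 < Fintype.card ι) :
    (u.1.1 - 1) ^ (Fintype.card ι - 1) = 0 := by
  obtain ⟨N, hN⟩ : ∃ N, N = u.1.1 - 1 := ⟨_, rfl⟩
  rw [← hN] at hu ⊢
  have hNa := nil_card hu
  obtain ⟨a, ha⟩ : ∃ a, Fintype.card ι = a + 1 := ⟨Fintype.card ι - 1, by omega⟩
  rw [ha, Nat.add_sub_cancel]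
  rw [ha] at hNa heven
  have hrel : ∀ x y : ι → F, (N *ᵥ x) ⬝ᵥ (G *ᵥ y) =
      -(x ⬝ᵥ (G *ᵥ (N *ᵥ y))) - (N *ᵥ x) ⬝ᵥ (G *ᵥ (N *ᵥ y)) := by
    intro x y
    have h : (u.1.1 *ᵥ x) ⬝ᵥ (G *ᵥ (u.1.1 *ᵥ y)) = x ⬝ᵥ (G *ᵥ y) := by
      conv_rhs => rw [← mem_pres.1 u.2]
      rw [← Matrix.mulVec_mulVec, ← Matrix.mulVec_mulVec, Matrix.dotProduct_mulVec x, Matrix.vecMul_transpose]
    have e : ∀ w, u.1.1 *ᵥ w = w + N *ᵥ w := fun w => by rw [hN, Matrix.sub_mulVec, Matrix.one_mulVec]; abel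
    simp only [e, Matrix.mulVec_add, dotProduct_add, add_dotProduct] at h
    linear_combination h
  have hrel' : ∀ (i l : ℕ) (x y : ι → F), (N ^ (i + 1) *ᵥ x) ⬝ᵥ (G *ᵥ (N ^ l *ᵥ y)) =
      -((N ^ i *ᵥ x) ⬝ᵥ (G *ᵥ (N ^ (l + 1) *ᵥ y))) - (N ^ (i + 1) *ᵥ x) ⬝ᵥ (G *ᵥ (N ^ (l + 1) *ᵥ y)) := by
    intro i l x y
    have e : ∀ (k : ℕ) (z : ι → F), N ^ (k + 1) *ᵥ z = N *ᵥ (N ^ k *ᵥ z) := fun k z => by
      rw [Matrix.mulVec_mulVec, ← pow_succ']
    rw [e i x, e l y]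
    exact hrel _ _
  have hzero : ∀ i l : ℕ, a + 1 ≤ i + l → ∀ x y : ι → F, (N ^ i *ᵥ x) ⬝ᵥ (G *ᵥ (N ^ l *ᵥ y)) = 0 := by
    intro i
    induction i with
    | zero =>
      intro l hl x y
      rw [pow_zero, Matrix.one_mulVec, pow_eq_zero_of_le (show a + 1 ≤ l by omega) hNa, Matrix.zero_mulVec,
        Matrix.mulVec_zero, dotProduct_zero]
    | succ i ih =>
      have hl' : ∀ t l : ℕ, a + 1 ≤ l + t → a + 1 ≤ i + 1 + l → ∀ x y : ι → F,
          (N ^ (i + 1) *ᵥ x) ⬝ᵥ (G *ᵥ (N ^ l *ᵥ y)) = 0 := by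
        intro t
        induction t with
        | zero =>
          intro l hl _ x y
          rw [pow_eq_zero_of_le (show a + 1 ≤ l by omega) hNa, Matrix.zero_mulVec, Matrix.mulVec_zero, dotProduct_zero]
        | succ t iht =>
          intro l _ hil x y
          rw [hrel', ih (l + 1) (by omega), iht (l + 1) (by omega) (by omega)]
          ring
      exact fun l hl x y => hl' (a + 1) l (by omega) hl x y
  have hflip : ∀ i l : ℕ, i + l = a → ∀ v : ι → F,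
      (N ^ i *ᵥ v) ⬝ᵥ (G *ᵥ (N ^ l *ᵥ v)) = (-1) ^ i * (v ⬝ᵥ (G *ᵥ (N ^ a *ᵥ v))) := by
    intro i
    induction i with
    | zero => intro l hl v; rw [show l = a by omega]; simp
    | succ i ih =>
      intro l hl v
      rw [hrel', ih (l + 1) (by omega), hzero (i + 1) (l + 1) (by omega)]
      ring
  have hao : Odd a := by
    obtain ⟨c, hc⟩ := heven
    exact ⟨c - 1, by omega⟩
  have hsym : ∀ x y : ι → F, x ⬝ᵥ (G *ᵥ y) = y ⬝ᵥ (G *ᵥ x) := fun x y => by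
    rw [Matrix.dotProduct_mulVec, ← Matrix.mulVec_transpose, hGs, dotProduct_comm]
  refine Matrix.ext_of_mulVec_single fun s => ?_
  rw [Matrix.zero_mulVec]
  generalize (Pi.single s 1 : ι → F) = v
  by_contra hne
  have hev : (N ^ a *ᵥ v) ⬝ᵥ (G *ᵥ v) = 0 := by
    have h := hflip a 0 (by omega) v
    rw [pow_zero, Matrix.one_mulVec, hao.neg_one_pow, hsym v] at h
    exact (mul_eq_zero.1 (by linear_combination h : (2 : F) * ((N ^ a *ᵥ v) ⬝ᵥ (G *ᵥ v)) = 0)).resolve_left h2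
  obtain ⟨C, hC⟩ : ∃ C : Matrix ι (Fin (a + 1)) F, C = Matrix.of fun t i => (N ^ i.val *ᵥ v) t := ⟨_, rfl⟩
  have hCc : ∀ c, C *ᵥ c = ∑ i, c i • (N ^ i.val *ᵥ v) := fun c => by
    ext t; simp [hC, Matrix.mulVec, dotProduct, Finset.sum_apply, mul_comm]
  have hinj : Function.Injective C.mulVec := by
    intro c d hcd
    by_contra hne'
    obtain ⟨i₀, hi₀, hmin⟩ : ∃ i₀ : Fin (a + 1), c i₀ ≠ d i₀ ∧ ∀ i, i < i₀ → c i = d i := by
      obtain ⟨i₀, hi₀, hmin⟩ := Finset.exists_min_image (Finset.univ.filter fun i => c i ≠ d i) id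
        (by obtain ⟨i, hi⟩ := Function.ne_iff.1 hne'; exact ⟨i, by simp [hi]⟩)
      refine ⟨i₀, (Finset.mem_filter.1 hi₀).2, fun i hi => ?_⟩
      by_contra h
      exact absurd (hmin i (by simp [h])) (not_le.2 hi)
    have h := congrArg (N ^ (a - i₀.val) *ᵥ ·) hcd
    rw [hCc, hCc] at h
    simp only [Matrix.mulVec_sum, Matrix.mulVec_smul, Matrix.mulVec_mulVec, ← pow_add] at h
    rw [← sub_eq_zero, ← Finset.sum_sub_distrib, Finset.sum_eq_single i₀] at h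
    · rw [← sub_smul, Nat.sub_add_cancel (by have := i₀.isLt; omega), smul_eq_zero] at h
      exact h.elim (fun h => hi₀ (sub_eq_zero.1 h)) hne
    · intro i _ hi
      rcases lt_or_gt_of_ne hi with hlt | hgt
      · rw [hmin i hlt, sub_self]
      · rw [pow_eq_zero_of_le (show a + 1 ≤ a - i₀.val + i.val by have := Fin.lt_def.1 hgt; have := i₀.isLt; omega) hNa]
        simp
    · simp
  have hsurj := ((Fintype.bijective_iff_injective_and_card C.mulVec).2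
    ⟨hinj, by simp only [Fintype.card_fun, Fintype.card_fin, ha]⟩).2
  refine hne (funext fun t => ?_)
  obtain ⟨w, hw⟩ := (Matrix.mulVec_surjective_iff_isUnit.2 ((Matrix.isUnit_iff_isUnit_det G).2 hGu)) (Pi.single t 1)
  obtain ⟨c, rfl⟩ := hsurj w
  rw [Pi.zero_apply]
  calc (N ^ a *ᵥ v) t = (N ^ a *ᵥ v) ⬝ᵥ (G *ᵥ (C *ᵥ c)) := by rw [hw]; simp
    _ = 0 := by
      rw [hCc]
      simp only [Matrix.mulVec_sum, Matrix.mulVec_smul, dotProduct_sum, dotProduct_smul]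
      refine Finset.sum_eq_zero fun i _ => ?_
      by_cases h0 : i.val = 0
      · rw [h0, pow_zero, Matrix.one_mulVec, hev, smul_zero]
      · rw [hzero a i.val (by omega), smul_zero]

/-- The decomposition along the fixed space of a semisimple element. -/
theorem decomp {G : Matrix ι ι F} (hGs : Gᵀ = G) (hGu : IsUnit G.det) (g : ↥(pres G)) {N : ℕ} (hN : (N : F) ≠ 0)
    (hg : g ^ N = 1) :
    ∃ (a b : ℕ) (G₁ : Matrix (Fin a) (Fin a) F) (G₂ : Matrix (Fin b) (Fin b) F)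
      (φ : ↥(pres G) ≃* ↥(pres (Matrix.fromBlocks G₁ 0 0 G₂))) (y : ↥(pres G₂)),
      a + b = Fintype.card ι ∧ G₁ᵀ = G₁ ∧ G₂ᵀ = G₂ ∧ IsUnit G₁.det ∧ IsUnit G₂.det ∧
      IsSquare (G.det * (G₁.det * G₂.det)) ∧ φ g = blockHom G₁ G₂ (1, y) ∧ (∀ v, y.1.1 *ᵥ v = v → v = 0) ∧
      (∀ u, (φ u).1.1.det = u.1.1.det) ∧ φ (negOne G) = negOne _ ∧
      (∀ (u : ↥(pres G)) (n : ℕ), ∑ i ∈ Finset.range n, (φ u).1.1 ^ i = 0 → ∑ i ∈ Finset.range n, u.1.1 ^ i = 0) ∧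
      (∀ u : ↥(pres G), (∀ v, u.1.1 *ᵥ v = v → v = 0) → ∀ v, (φ u).1.1 *ᵥ v = v → v = 0) ∧
      ∀ u : ↥(pres G), u * g = g * u → ∃ u₁ u₂, φ u = blockHom G₁ G₂ (u₁, u₂) ∧ u₂ * y = y * u₂ := by
  obtain ⟨a, b, M₁, M₂, y, hab, hM₁, hM₂, hu1, hu2, hgM₁, hY, hy, hfix, -, -, hcen⟩ :=
    exists_fix_split hGu g.2 hN (by rw [← SubgroupClass.coe_pow, hg]; rfl)
  have hoff : M₁ᵀ * G * M₂ = 0 := by
    have h0 : M₁ᵀ * G * M₂ * y.1 = M₁ᵀ * G * M₂ := by
      calc _ = (g.1.1 * M₁)ᵀ * G * (g.1.1 * M₂) := by rw [hgM₁, hY]; simp only [Matrix.mul_assoc]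
        _ = M₁ᵀ * (g.1.1ᵀ * G * g.1.1) * M₂ := by simp only [transpose_mul, Matrix.mul_assoc]
        _ = _ := by rw [mem_pres.1 g.2]
    have hz : M₁ᵀ * G * M₂ * (y.1 - 1) = 0 := by rw [Matrix.mul_sub, h0, Matrix.mul_one, sub_self]
    have hu : IsUnit (y.1 - 1).det := isUnit_iff_ne_zero.2 fun h => by
      obtain ⟨v, hv0, hv⟩ := Matrix.exists_mulVec_eq_zero_iff.mpr h
      rw [Matrix.sub_mulVec, Matrix.one_mulVec, sub_eq_zero] at hv
      exact hv0 (hfix v hv)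
    calc _ = M₁ᵀ * G * M₂ * ((y.1 - 1) * (y.1 - 1)⁻¹) := by rw [Matrix.mul_nonsing_inv _ hu, Matrix.mul_one]
      _ = 0 := by rw [← Matrix.mul_assoc, hz, Matrix.zero_mul]
  have hoff' : M₂ᵀ * G * M₁ = 0 := by
    have := congrArg Matrix.transpose hoff
    rwa [transpose_mul, transpose_mul, transpose_transpose, hGs, transpose_zero, ← Matrix.mul_assoc] at this
  obtain ⟨e⟩ : Nonempty (ι ≃ Fin a ⊕ Fin b) := ⟨Fintype.equivOfCardEq (by simp [hab])⟩
  obtain ⟨T, hT⟩ : ∃ T, T = Matrix.fromCols M₁ M₂ := ⟨_, rfl⟩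
  obtain ⟨G₁, hG₁⟩ : ∃ G₁, G₁ = M₁ᵀ * G * M₁ := ⟨_, rfl⟩
  obtain ⟨G₂, hG₂⟩ : ∃ G₂, G₂ = M₂ᵀ * G * M₂ := ⟨_, rfl⟩
  rw [← hG₁] at hu1
  rw [← hG₂] at hu2 hy
  have hTG : Tᵀ * G * T = Matrix.fromBlocks G₁ 0 0 G₂ := by
    rw [hT, Matrix.transpose_fromCols, Matrix.fromRows_mul, Matrix.fromRows_mul_fromCols, hoff, hoff', ← hG₁, ← hG₂]
  obtain ⟨T1, hT1⟩ : ∃ T1, T1 = T.submatrix id e := ⟨_, rfl⟩
  have h0 : T1ᵀ * G * T1 = (Matrix.fromBlocks G₁ 0 0 G₂).submatrix e e := by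
    rw [← hTG, hT1, Matrix.transpose_submatrix]
    ext i j
    simp [Matrix.mul_apply]
  have hdet := congrArg Matrix.det h0
  rw [Matrix.det_mul, Matrix.det_mul, Matrix.det_transpose, Matrix.det_submatrix_equiv_self,
    Matrix.det_fromBlocks_zero₁₂] at hdet
  have hT1u : IsUnit T1.det := isUnit_iff_ne_zero.2 fun h => by
    rw [h, mul_zero] at hdet
    exact mul_ne_zero hu1.ne_zero hu2.ne_zero hdet.symm
  obtain ⟨S', hS'⟩ : ∃ S', S' = T1⁻¹.submatrix e.symm id := ⟨_, rfl⟩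
  have hTe : T = T1.submatrix id e.symm := by rw [hT1, Matrix.submatrix_submatrix]; simp
  have hST : S' * T = 1 := by
    rw [hTe, hS', ← Matrix.submatrix_mul _ _ _ _ _ Function.bijective_id, Matrix.nonsing_inv_mul _ hT1u,
      Matrix.submatrix_one_equiv]
  have hTS : T * S' = 1 := by
    rw [hTe, hS', Matrix.submatrix_mul_equiv, Matrix.submatrix_id_id, Matrix.mul_nonsing_inv _ hT1u]
  have hGS : S'ᵀ * Matrix.fromBlocks G₁ 0 0 G₂ * S' = G := by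
    rw [← hTG]
    calc _ = (T * S')ᵀ * G * (T * S') := by simp only [transpose_mul, Matrix.mul_assoc]
      _ = G := by rw [hTS, transpose_one, Matrix.one_mul, Matrix.mul_one]
  obtain ⟨φ, hφ⟩ := pres_equiv (G := G) (B := Matrix.fromBlocks G₁ 0 0 G₂) S' T hST hTS one_ne_zero
    (by rw [one_smul, hGS])
  have key : ∀ (u : ↥(pres G)) (u₁ : ↥(pres G₁)) (u₂ : ↥(pres G₂)), u.1.1 * M₁ = M₁ * u₁.1.1 →
      u.1.1 * M₂ = M₂ * u₂.1.1 → φ u = blockHom G₁ G₂ (u₁, u₂) := by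
    intro u u₁ u₂ h1 h2'
    refine Subtype.ext (Units.ext ?_)
    rw [hφ, blockHom_apply, Matrix.mul_assoc]
    have : u.1.1 * T = T * Matrix.fromBlocks u₁.1.1 0 0 u₂.1.1 := by
      rw [hT, Matrix.mul_fromCols, Matrix.fromCols_mul_fromBlocks, h1, h2']; simp
    rw [this, ← Matrix.mul_assoc, hST, Matrix.one_mul]
  refine ⟨a, b, G₁, G₂, φ, ⟨y, hy⟩, hab, ?_, ?_, hu1, hu2, ⟨T1.det * G.det, by linear_combination -G.det * hdet⟩,
    key g 1 ⟨y, hy⟩ (by simp [hgM₁]) hY, hfix, fun u => ?_, ?_, fun u n h => ?_, fun u hu v hv => ?_, fun u hu => ?_⟩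
  · rw [hG₁, transpose_mul, transpose_mul, transpose_transpose, hGs, Matrix.mul_assoc]
  · rw [hG₂, transpose_mul, transpose_mul, transpose_transpose, hGs, Matrix.mul_assoc]
  · have e1 : S' * u.1.1 * T = (T1⁻¹ * u.1.1 * T1).submatrix e.symm e.symm := by
      rw [hS', hTe, show u.1.1 = u.1.1.submatrix id id from (Matrix.submatrix_id_id _).symm,
        ← Matrix.submatrix_mul _ _ _ _ _ Function.bijective_id, ← Matrix.submatrix_mul _ _ _ _ _ Function.bijective_id]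
      rfl
    rw [hφ, e1, Matrix.det_submatrix_equiv_self, Matrix.det_mul, Matrix.det_mul, mul_comm (Matrix.det T1⁻¹), mul_assoc,
      ← Matrix.det_mul, Matrix.nonsing_inv_mul _ hT1u, Matrix.det_one, mul_one]
  · refine Subtype.ext (Units.ext ?_)
    rw [hφ, negOne_val, negOne_val, Matrix.mul_neg, Matrix.mul_one, Matrix.neg_mul, hST]
  · have hpw : ∀ i : ℕ, u.1.1 ^ i = T * (φ u).1.1 ^ i * S' := fun i => by
      rw [← Units.val_pow_eq_pow_val, ← Units.val_pow_eq_pow_val, ← SubgroupClass.coe_pow, ← SubgroupClass.coe_pow,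
        ← map_pow, hφ]
      calc _ = (T * S') * (u ^ i).1.1 * (T * S') := by rw [hTS, Matrix.one_mul, Matrix.mul_one]
        _ = _ := by simp only [Matrix.mul_assoc]
    rw [Finset.sum_congr rfl fun i _ => hpw i, ← Matrix.sum_mul, ← Matrix.mul_sum, h, Matrix.mul_zero, Matrix.zero_mul]
  · rw [hφ, Matrix.mul_assoc, ← Matrix.mulVec_mulVec] at hv
    have h' := congrArg (T *ᵥ ·) hv
    simp only [Matrix.mulVec_mulVec, ← Matrix.mul_assoc, hTS, Matrix.one_mul] at h'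
    rw [← Matrix.mulVec_mulVec] at h'
    have := congrArg (S' *ᵥ ·) (hu _ h')
    simpa [Matrix.mulVec_mulVec, hST] using this
  · obtain ⟨u₁, u₂, h1, h2', hm1, hm2, hc⟩ := hcen u.1 u.2 (congrArg Subtype.val hu)
    rw [← hG₁] at hm1
    rw [← hG₂] at hm2
    exact ⟨⟨u₁, hm1⟩, ⟨u₂, hm2⟩, key u _ _ h1 h2', Subtype.ext hc⟩

end CfsgLib.SpecNine
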