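import Cfsg.Agent.SpecNine.Torus

/-!
Orders of elements of `V ⋊ Ω₈⁻`.
-/

set_option autoImplicit false
set_option linter.unusedSectionVars false

namespace CfsgLib.SpecNine

open Matrix QuadraticMap CfsgLib.PrimeGraphBC
open scoped Classical

variable {F : Type*} [Field F] [Fintype F]

/-- An order in the extension of `Ω₈⁻` by its natural module. -/
def SH (F : Type*) [Field F] (p N : ℕ) : Prop :=
  ∃ (ι : Type) (_ : Fintype ι) (_ : DecidableEq ι) (G : Matrix ι ι F) (h : ↥(pres G)),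
    Fintype.card ι = 8 ∧ Gᵀ = G ∧ IsUnit G.det ∧ ¬ Pl 4 G ∧ h ∈ commutator ↥(pres G) ∧
      (orderOf h = N ∨ (N = p * orderOf h ∧ ∑ i ∈ Finset.range (orderOf h), h.1.1 ^ i ≠ 0))

theorem isSquare_mul_iff {a b : F} (ha : a ≠ 0) (hb : b ≠ 0) : IsSquare (a * b) ↔ (IsSquare a ↔ IsSquare b) := by
  rw [← quadraticChar_one_iff_isSquare (mul_ne_zero ha hb), map_mul, ← quadraticChar_one_iff_isSquare ha,
    ← quadraticChar_one_iff_isSquare hb]
  rcases quadraticChar_dichotomy ha with h | h <;> rcases quadraticChar_dichotomy hb with h' | h' <;> simp [h, h']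

theorem pl_blocks {ι κ : Type} [Fintype ι] [DecidableEq ι] [Fintype κ] [DecidableEq κ] {G₁ : Matrix ι ι F}
    {G₂ : Matrix κ κ F} (h1 : IsUnit G₁.det) (h2 : IsUnit G₂.det) (a b : ℕ) :
    Pl (a + b) (Matrix.fromBlocks G₁ 0 0 G₂) ↔ (Pl a G₁ ↔ Pl b G₂) := by
  rw [Pl, Matrix.det_fromBlocks_zero₁₂, pow_add, mul_mul_mul_comm]
  exact isSquare_mul_iff (mul_ne_zero (pow_ne_zero _ (neg_ne_zero.2 one_ne_zero)) h1.ne_zero)
    (mul_ne_zero (pow_ne_zero _ (neg_ne_zero.2 one_ne_zero)) h2.ne_zero)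

theorem exists_rest (h2 : (2 : F) ≠ 0) {r : ℕ} (hr : 1 ≤ r) {d : F} (hd : d ≠ 0) :
    ∃ R : Matrix (Fin r) (Fin r) F, Rᵀ = R ∧ IsUnit R.det ∧ ¬ IsSquare (d * R.det) := by
  obtain ⟨ν, hν⟩ := nonsquare_exists h2
  obtain ⟨δ, hδ⟩ : ∃ δ : Fin r → F, δ = Function.update (fun _ => 1) ⟨0, by omega⟩ (ν / d) := ⟨_, rfl⟩
  have hp : ∏ i, δ i = ν / d := by
    rw [hδ, Finset.prod_update_of_mem (Finset.mem_univ _)]; simp
  have hν0 : ν ≠ 0 := fun h => hν (h ▸ IsSquare.zero)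
  refine ⟨Matrix.diagonal δ, Matrix.diagonal_transpose δ, ?_, ?_⟩
  · rw [Matrix.det_diagonal, hp]; exact isUnit_iff_ne_zero.2 (div_ne_zero hν0 hd)
  · rwa [Matrix.det_diagonal, hp, mul_div_cancel₀ _ hd]

variable {ι : Type} [Fintype ι] [DecidableEq ι] {Gs : Matrix ι ι F}

/-- An element of `Ω` of a space of dimension at most seven. -/
theorem sh_of_block (h2 : (2 : F) ≠ 0) (p : ℕ) (hs : Gsᵀ = Gs) (hu : IsUnit Gs.det) (hb : Fintype.card ι ≤ 7)
    (h0 : ↥(pres Gs)) (hh : h0 ∈ commutator ↥(pres Gs)) : SH F p (orderOf h0) := by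
  obtain ⟨r, hr⟩ : ∃ r, Fintype.card ι + r = 8 := ⟨8 - Fintype.card ι, by omega⟩
  obtain ⟨R, hRs, hRu, hR⟩ := exists_rest h2 (r := r) (by omega) (d := (-1) ^ 4 * Gs.det)
    (mul_ne_zero (pow_ne_zero _ (neg_ne_zero.2 one_ne_zero)) hu.ne_zero)
  refine ⟨ι ⊕ Fin r, inferInstance, inferInstance, Matrix.fromBlocks Gs 0 0 R, blockHom Gs R (h0, 1), by simp [hr],
    fromBlocks_symm hs hRs, fromBlocks_unit hu hRu, ?_, (block_left_mem h2 hs hu hRs hRu h0).2 hh, Or.inl ?_⟩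
  · rwa [Pl, Matrix.det_fromBlocks_zero₁₂, ← mul_assoc]
  · rw [orderOf_blockHom, orderOf_one, Nat.lcm_one_right]

theorem sum_blocks {α β : Type} [Fintype α] [DecidableEq α] [Fintype β] [DecidableEq β] (A : Matrix α α F)
    (B : Matrix β β F) (n : ℕ) : ∑ i ∈ Finset.range n, (Matrix.fromBlocks A 0 0 B) ^ i =
      Matrix.fromBlocks (∑ i ∈ Finset.range n, A ^ i) 0 0 (∑ i ∈ Finset.range n, B ^ i) := by
  have hp : ∀ i : ℕ, (Matrix.fromBlocks A 0 0 B) ^ i = Matrix.fromBlocks (A ^ i) 0 0 (B ^ i) := fun i => by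
    induction i with
    | zero => simp
    | succ i ih => rw [pow_succ, ih, Matrix.fromBlocks_multiply]; simp [pow_succ]
  induction n with
  | zero => simp
  | succ n ih =>
    rw [Finset.sum_range_succ, ih, hp, Matrix.fromBlocks_add, Finset.sum_range_succ, Finset.sum_range_succ]
    simp

/-- An element of `Ω` beside a regular unipotent element, extended by a translation. -/
theorem sh_of_fixed (h2 : (2 : F) ≠ 0) {p : ℕ} [Fact p.Prime] [CharP F p] (hp : p ≠ 2) (hs : Gsᵀ = Gs)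
    (hu : IsUnit Gs.det) (h0 : ↥(pres Gs)) (hh : h0 ∈ commutator ↥(pres Gs)) {r j : ℕ} (hr : ¬ p ∣ r)
    (hord : orderOf h0 ∣ r * p ^ j) (hb : Fintype.card ι + p ^ j ≤ 7) :
    SH F p (p * Nat.lcm (orderOf h0) (p ^ j)) := by
  have hpp : p.Prime := Fact.out
  obtain ⟨GD, u, hGDs, hGDu, hnil, hupow⟩ := exists_regular (F := F) h2 p ((hpp.odd_of_ne_two hp).pow (n := j))
  have huo : orderOf u = p ^ j := by
    rcases Nat.eq_zero_or_pos j with rfl | hj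
    · have h := (hupow 0).2 le_rfl
      calc orderOf u = orderOf (u ^ p ^ 0) := by congr 1; exact ((congrArg (u ^ ·) (pow_zero p)).trans (pow_one u)).symm
        _ = p ^ 0 := by rw [h, orderOf_one]; exact (pow_zero p).symm
    · obtain ⟨i, rfl⟩ : ∃ i, j = i + 1 := ⟨j - 1, by omega⟩
      exact orderOf_eq_prime_pow (fun h => absurd ((hupow i).1 h) (not_le.2 (Nat.pow_lt_pow_right hpp.one_lt (by omega))))
        ((hupow _).2 le_rfl)
  obtain ⟨t, ht⟩ : ∃ t, Fintype.card ι + p ^ j + t = 8 := ⟨8 - (Fintype.card ι + p ^ j), by omega⟩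
  obtain ⟨R, hRs, hRu, hR⟩ := exists_rest h2 (r := t) (by omega) (d := (-1) ^ 4 * Gs.det * GD.det)
    (mul_ne_zero (mul_ne_zero (pow_ne_zero _ (neg_ne_zero.2 one_ne_zero)) hu.ne_zero) hGDu.ne_zero)
  have h2s := fromBlocks_symm hGDs hRs
  have h2u := fromBlocks_unit hGDu hRu
  have hGs := fromBlocks_symm hs h2s
  have hGu := fromBlocks_unit hu h2u
  obtain ⟨h, hdef⟩ : ∃ h, h = blockHom Gs (Matrix.fromBlocks GD 0 0 R) (h0, blockHom GD R (u, 1)) := ⟨_, rfl⟩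
  have hmem : h ∈ commutator ↥(pres (Matrix.fromBlocks Gs 0 0 (Matrix.fromBlocks GD 0 0 R))) := by
    rw [hdef, show ((h0, blockHom GD R (u, 1)) : _ × _) = (h0, 1) * (1, blockHom GD R (u, 1)) by
      rw [Prod.mk_mul_mk, mul_one, one_mul], map_mul]
    refine mul_mem ((block_left_mem h2 hs hu h2s h2u h0).2 hh)
      (odd_mem_of_sq_mem (sq_mem_commutator h2 hGs hGu (by
        have := hpp.two_le; have := Nat.one_le_pow j p hpp.pos
        simp only [Fintype.card_sum, Fintype.card_fin]; omega)) ?_)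
    rw [orderOf_blockHom, orderOf_one, Nat.lcm_one_left, orderOf_blockHom, orderOf_one, Nat.lcm_one_right, huo]
    exact (hpp.odd_of_ne_two hp).pow
  have hho : orderOf h = Nat.lcm (orderOf h0) (p ^ j) := by
    rw [hdef, orderOf_blockHom, orderOf_blockHom, orderOf_one, Nat.lcm_one_right, huo]
  refine ⟨ι ⊕ (Fin (p ^ j) ⊕ Fin t), inferInstance, inferInstance, _, h, by simp; omega, hGs, hGu, ?_, hmem,
    Or.inr ⟨by rw [hho], fun h0' => ?_⟩⟩
  · rwa [Pl, Matrix.det_fromBlocks_zero₁₂, Matrix.det_fromBlocks_zero₁₂, ← mul_assoc, ← mul_assoc]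
  · rw [hho] at h0'
    obtain ⟨c, hc⟩ := Nat.dvd_lcm_right (orderOf h0) (p ^ j)
    have hcr : c ∣ r := by
      have : p ^ j * c ∣ p ^ j * r := by
        rw [← hc]
        exact Nat.lcm_dvd (by rwa [mul_comm]) (dvd_mul_right _ _)
      exact Nat.dvd_of_mul_dvd_mul_left (pow_pos hpp.pos _) this
    rw [hdef, blockHom_apply, sum_blocks, blockHom_apply, sum_blocks] at h0'
    have h1 := congrArg Matrix.toBlocks₁₁ (congrArg Matrix.toBlocks₂₂ h0')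
    rw [Matrix.toBlocks_fromBlocks₂₂, Matrix.toBlocks_fromBlocks₁₁, hc, mul_comm (p ^ j) c,
      sum_pow_mul (by
        rw [← Units.val_pow_eq_pow_val, ← SubgroupClass.coe_pow, (hupow j).2 le_rfl]; rfl), geom_pred (F := F) p,
      ← Nat.cast_smul_eq_nsmul F] at h1
    have hc0 : (c : F) ≠ 0 := natCast_ne_zero_of_coprime (p := p) fun h => hr (h.trans hcr)
    rw [show (Matrix.toBlocks₂₂ (0 : Matrix (ι ⊕ (Fin (p ^ j) ⊕ Fin t)) (ι ⊕ (Fin (p ^ j) ⊕ Fin t)) F)).toBlocks₁₁ = 0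
      from rfl, smul_eq_zero_iff_right hc0, hnil] at h1
    have := Nat.one_le_pow j p hpp.pos
    omega

/-- Two full tori. -/
theorem exists_pair (h2 : (2 : F) ≠ 0) {w₁ w₂ E₁ E₂ : ℕ} {s t : Bool} (hw : 1 ≤ w₁) (a : Full F w₁ s E₁)
    (b : Full F w₂ t E₂) :
    ∃ (κ : Type) (_ : Fintype κ) (_ : DecidableEq κ) (G : Matrix κ κ F) (h : ↥(pres G)),
      Fintype.card κ = 2 * (w₁ + w₂) ∧ Gᵀ = G ∧ IsUnit G.det ∧ (Pl (w₁ + w₂) G ↔ (s = true ↔ t = true)) ∧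
        h ∈ commutator ↥(pres G) ∧ orderOf h = Nat.lcm E₁ E₂ := by
  obtain ⟨ι, _, _, G₁, g, hc, hs1, hu1, hp1, hd1, hn1, ho1⟩ := a
  obtain ⟨κ, _, _, G₂, k, hc', hs2, hu2, hp2, hd2, hn2, ho2⟩ := b
  have hGs := fromBlocks_symm hs1 hs2
  have hGu := fromBlocks_unit hu1 hu2
  refine ⟨ι ⊕ κ, inferInstance, inferInstance, _, blockHom G₁ G₂ (g, k), by simp [hc, hc']; ring, hGs, hGu, ?_, ?_,
    by rw [orderOf_blockHom, ho1, ho2]⟩
  · rw [pl_blocks hu1 hu2, hp1, hp2]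
  · rw [show ((g, k) : _ × _) = (g, 1) * (1, k) by rw [Prod.mk_mul_mk, mul_one, one_mul], map_mul]
    refine mul_mem_of_not h2 hGs hGu (by simp; omega) ?_ ?_
      (fun h => hn1 ((block_left_mem h2 hs1 hu1 hs2 hu2 g).1 h))
      (fun h => hn2 ((block_right_mem h2 hs1 hu1 hs2 hu2 k).1 h))
    · rw [blockHom_apply, Matrix.det_fromBlocks_zero₁₂, hd1]; simp
    · rw [blockHom_apply, Matrix.det_fromBlocks_zero₁₂, hd2]; simp

/-- The targets. -/
def tops (q p : ℕ) : List ℕ :=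
  [Nat.lcm (q ^ 2 + 1) (q ^ 2 - 1), Nat.lcm (q ^ 3 + 1) (q ^ 1 - 1), Nat.lcm (q ^ 3 - 1) (q ^ 1 + 1),
    p * Nat.lcm (q ^ 2 + 1) (q ^ 1 + 1), p * Nat.lcm (q ^ 2 + 1) (q ^ 1 - 1), p * (q ^ 2 - 1)] ++
  (if p = 3 then [9 * (q ^ 1 + 1), 9 * (q ^ 1 - 1)] else []) ++ (if p = 5 then [50] else [])

theorem sh_tops (h2 : (2 : F) ≠ 0) {p : ℕ} [Fact p.Prime] [CharP F p] (hp : p ≠ 2) :
    ∀ T ∈ tops (Nat.card F) p, ∃ N, SH F p N ∧ T ∣ N := by
  have hpp : p.Prime := Fact.out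
  obtain ⟨q, hq⟩ : ∃ q, q = Nat.card F := ⟨_, rfl⟩
  rw [← hq]
  have P := fun w hw => hq ▸ exists_full_plus (F := F) h2 w hw
  have M := fun w hw => hq ▸ exists_full_minus (F := F) h2 w hw
  obtain ⟨e, he0, he⟩ : ∃ e, e ≠ 0 ∧ q = p ^ e := by
    obtain ⟨e, -, he⟩ := FiniteField.card F p
    exact ⟨e, e.2.ne', by rw [hq, Nat.card_eq_fintype_card, he]⟩
  have hpm : ∀ w, 1 ≤ w → ¬ p ∣ q ^ w + 1 ∧ ¬ p ∣ q ^ w - 1 := fun w hw => by
    have hd : p ∣ q ^ w := by rw [he, ← pow_mul]; exact dvd_pow_self _ (Nat.mul_ne_zero he0 (by omega))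
    refine ⟨fun h => hpp.not_dvd_one ((Nat.dvd_add_right hd).1 h), fun h => hpp.not_dvd_one ?_⟩
    have h3 := Nat.dvd_sub hd h
    rwa [Nat.sub_sub_self (Nat.one_le_pow _ _ (by rw [he]; exact pow_pos hpp.pos _))] at h3
  have full : ∀ {a b : Bool} {E₁ E₂ w₁ w₂ : ℕ}, 1 ≤ w₁ → w₁ + w₂ = 4 → Full F w₁ a E₁ → Full F w₂ b E₂ → a ≠ b →
      ∃ N, SH F p N ∧ Nat.lcm E₁ E₂ ∣ N := by
    intro a b E₁ E₂ w₁ w₂ hw hsum A B hab
    obtain ⟨κ, _, _, G, h, hc, hs, hu, hpl, hm, ho⟩ := exists_pair h2 hw A B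
    exact ⟨_, ⟨κ, inferInstance, inferInstance, G, h, by omega, hs, hu,
      fun h' => by rw [← hsum, hpl] at h'; revert h' hab; cases a <;> cases b <;> simp, hm, Or.inl rfl⟩, ho ▸ dvd_rfl⟩
  have fix : ∀ {a b : Bool} {E₁ E₂ w₁ w₂ j : ℕ}, 1 ≤ w₁ → 2 * (w₁ + w₂) + p ^ j ≤ 7 → ¬ p ∣ E₁ → ¬ p ∣ E₂ →
      Full F w₁ a E₁ → Full F w₂ b E₂ → ∃ N, SH F p N ∧ p ^ (j + 1) * Nat.lcm E₁ E₂ ∣ N := by
    intro a b E₁ E₂ w₁ w₂ j hw hb h1 h1' A B
    obtain ⟨κ, _, _, G, h, hc, hs, hu, hpl, hm, ho⟩ := exists_pair h2 hw A B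
    have hnd : ¬ p ∣ Nat.lcm E₁ E₂ := fun h' =>
      (hpp.dvd_mul.1 (h'.trans (Nat.lcm_dvd_mul _ _))).elim h1 h1'
    refine ⟨_, sh_of_fixed h2 hp hs hu h hm (j := j) hnd (by rw [ho]; exact dvd_mul_right _ _) (by omega), ?_⟩
    rw [ho, ((hpp.coprime_iff_not_dvd.2 hnd).symm.pow_right j).lcm_eq_mul, pow_succ]
    exact dvd_of_eq (by ring)
  intro T hT
  simp only [tops, List.mem_append, List.mem_cons, List.not_mem_nil, or_false] at hT
  rcases hT with (h | h) | h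
  · rcases h with rfl | rfl | rfl | rfl | rfl | rfl
    · exact full (by norm_num) rfl (M 2 (by norm_num)) (P 2 (by norm_num)) (by simp)
    · exact full (by norm_num) rfl (M 3 (by norm_num)) (P 1 le_rfl) (by simp)
    · exact full (by norm_num) rfl (P 3 (by norm_num)) (M 1 le_rfl) (by simp)
    · simpa using fix (j := 0) (by norm_num) (by norm_num) (hpm 2 (by norm_num)).1 (hpm 1 le_rfl).1
        (M 2 (by norm_num)) (M 1 le_rfl)
    · simpa using fix (j := 0) (by norm_num) (by norm_num) (hpm 2 (by norm_num)).1 (hpm 1 le_rfl).2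
        (M 2 (by norm_num)) (P 1 le_rfl)
    · obtain ⟨N, hN, hd⟩ := fix (j := 0) (by norm_num) (by norm_num) (hpm 2 (by norm_num)).2 (hpm 1 le_rfl).2
        (P 2 (by norm_num)) (P 1 le_rfl)
      exact ⟨N, hN, (Nat.mul_dvd_mul (dvd_of_eq (pow_one p).symm) (Nat.dvd_lcm_left _ _)).trans hd⟩
  · split_ifs at h with h3
    · subst h3
      simp only [List.mem_cons, List.not_mem_nil, or_false] at h
      rcases h with rfl | rfl
      · simpa using fix (j := 1) le_rfl (by norm_num) (hpm 1 le_rfl).1 (hpm 1 le_rfl).1 (M 1 le_rfl) (M 1 le_rfl)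
      · simpa using fix (j := 1) le_rfl (by norm_num) (hpm 1 le_rfl).2 (hpm 1 le_rfl).2 (P 1 le_rfl) (P 1 le_rfl)
    · simp at h
  · split_ifs at h with h5
    · subst h5
      simp only [List.mem_cons, List.not_mem_nil, or_false] at h
      subst h
      obtain ⟨κ, _, _, G, g, hc, hs, hu, -, -, -, ho⟩ := P 1 le_rfl
      obtain ⟨c, hc4⟩ : 4 ∣ q ^ 1 - 1 := by
        rw [pow_one, he]
        exact (by norm_num : 4 ∣ 5 - 1).trans (Nat.sub_one_dvd_pow_sub_one 5 e)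
      have ho2 : orderOf (g ^ 2) = (q ^ 1 - 1) / 2 := by
        rw [orderOf_pow' _ two_ne_zero, ho, hc4, show 4 * c = 2 * (2 * c) by ring, Nat.gcd_mul_right_left]
      have hnd : ¬ 5 ∣ (q ^ 1 - 1) / 2 := fun h => (hpm 1 le_rfl).2 (h.trans (Nat.div_dvd_of_dvd ⟨2 * c, by omega⟩))
      refine ⟨_, sh_of_fixed h2 hp hs hu (g ^ 2) (sq_mem_commutator h2 hs hu (by omega) g) (j := 1) hnd
        (ho2 ▸ dvd_mul_right _ _) (by rw [pow_one]; omega), ?_⟩
      rw [ho2, pow_one 5, ((Nat.Prime.coprime_iff_not_dvd (by norm_num)).2 hnd).symm.lcm_eq_mul, hc4]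
      exact ⟨c, by rw [show 4 * c / 2 = 2 * c by omega]; ring⟩
    · simp at h

end CfsgLib.SpecNine
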