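import Cfsg.Agent.SpecNine.Basic
import Cfsg.Agent.Symp.Basic
import Mathlib.FieldTheory.Finite.Extension
import Mathlib.FieldTheory.Finite.Trace

/-!
Full tori of orthogonal groups and regular unipotent elements.
-/

set_option autoImplicit false
set_option linter.unusedSectionVars false

namespace CfsgLib.SpecNine

open Matrix QuadraticMap CfsgLib.PrimeGraphBC
open scoped Classical

variable {F : Type*} [Field F] [Fintype F]

/-- An element of determinant one outside `Ω`, in a space of given type and dimension, of given order. -/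
def Full (F : Type*) [Field F] (w : ℕ) (plus : Bool) (E : ℕ) : Prop :=
  ∃ (ι : Type) (_ : Fintype ι) (_ : DecidableEq ι) (G : Matrix ι ι F) (g : ↥(pres G)),
    Fintype.card ι = 2 * w ∧ Gᵀ = G ∧ IsUnit G.det ∧ (Pl w G ↔ plus = true) ∧ g.1.1.det = 1 ∧
      g ∉ commutator ↥(pres G) ∧ orderOf g = E

theorem odd_card (h2 : (2 : F) ≠ 0) : Odd (Nat.card F) := by
  rw [Nat.card_eq_fintype_card]; exact CfsgLib.OrthOrder.odd_of_two_ne_zero h2

theorem not_mem_of_half (h2 : (2 : F) ≠ 0) {ι : Type} [Fintype ι] [DecidableEq ι] {G : Matrix ι ι F} (hGs : Gᵀ = G)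
    (hGu : IsUnit G.det) (hdim : 2 ≤ Fintype.card ι) (g : ↥(pres G)) {E c : ℕ} (hE : 2 ∣ E) (hE0 : 0 < E)
    (hc : Odd c) (hlev : lev G = c * E) (hg : g.1.1 ^ (E / 2) = -1) : g ∉ commutator ↥(pres G) := by
  obtain ⟨N, o, ho, hEo⟩ := Nat.exists_eq_two_pow_mul_odd hE0.ne'
  obtain ⟨N, rfl⟩ : ∃ M, N = M + 1 := ⟨N - 1, by
    rcases N with _ | N
    · rw [pow_zero, one_mul] at hEo
      exact absurd (hEo ▸ hE) (by obtain ⟨l, rfl⟩ := ho; omega)
    · omega⟩
  intro hmem
  refine not_mem_of_free h2 hGs hGu hdim (g ^ o) (N := N) ?_ (hc.mul ho) (by rw [hlev, hEo]; ring) (pow_mem hmem o)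
  rw [SubgroupClass.coe_pow, Units.val_pow_eq_pow_val, ← pow_mul, ← hg, hEo, pow_succ, mul_comm (2 ^ N) 2,
    mul_assoc, Nat.mul_div_cancel_left _ two_pos, mul_comm o]

theorem exists_full_plus (h2 : (2 : F) ≠ 0) (w : ℕ) (hw : 1 ≤ w) : Full F w true (Nat.card F ^ w - 1) := by
  obtain ⟨p, hp⟩ := CharP.exists F
  have : Fact p.Prime := ⟨CharP.char_is_prime F p⟩
  have : NeZero w := ⟨by omega⟩
  let K := FiniteField.Extension F p w
  let b := (Module.finBasis F K).reindex (finCongr (FiniteField.finrank_extension F p w))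
  have hcK : Nat.card K = Nat.card F ^ w := FiniteField.natCard_extension F p w
  obtain ⟨l, hl⟩ := IsCyclic.exists_generator (α := Kˣ)
  have hlo : orderOf l = Nat.card F ^ w - 1 := by
    rw [orderOf_eq_card_of_forall_mem_zpowers hl, Nat.card_units, hcK]
  have hodd := (odd_card h2).pow (n := w)
  have hT := CfsgLib.Symp.isUnit_traceMatrix b
  set T := Algebra.traceMatrix F b with hTdef
  set G := Matrix.fromBlocks 0 T T 0 with hG
  have hmove : ∀ x : K, T * Algebra.leftMulMatrix b x = (Algebra.leftMulMatrix b x)ᵀ * T := fun x => by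
    rw [hTdef]
    ext i k
    have h : ∀ i k, (Algebra.traceMatrix F b * Algebra.leftMulMatrix b x) i k = Algebra.trace F K (b i * (x * b k)) := by
      intro i k
      have h : x * b k = ∑ j, Algebra.leftMulMatrix b x j k • b j := by
        simp only [Algebra.leftMulMatrix_eq_repr_mul]
        exact (b.sum_repr (x * b k)).symm
      rw [h, Finset.mul_sum, map_sum, Matrix.mul_apply]
      refine Finset.sum_congr rfl fun j _ => ?_
      rw [mul_smul_comm, map_smul, smul_eq_mul, mul_comm, Algebra.traceMatrix_apply, Algebra.traceForm_apply]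
    have hTs : (Algebra.traceMatrix F b)ᵀ = Algebra.traceMatrix F b := by
      ext i j
      rw [Matrix.transpose_apply, Algebra.traceMatrix_apply, Algebra.traceMatrix_apply, Algebra.traceForm_apply,
        Algebra.traceForm_apply, mul_comm]
    rw [h, show ((Algebra.leftMulMatrix b x)ᵀ * Algebra.traceMatrix F b) i k =
      (Algebra.traceMatrix F b * Algebra.leftMulMatrix b x) k i by
        rw [← Matrix.transpose_apply (Algebra.traceMatrix F b * Algebra.leftMulMatrix b x), Matrix.transpose_mul, hTs], h]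
    exact congrArg _ (by ring)
  have hTs : Tᵀ = T := by
    ext i j
    rw [hTdef, Matrix.transpose_apply, Algebra.traceMatrix_apply, Algebra.traceMatrix_apply, Algebra.traceForm_apply,
      Algebra.traceForm_apply, mul_comm]
  let ψ : Kˣ →* GL (Fin w ⊕ Fin w) F := MonoidHom.toHomUnits
    { toFun := fun x : Kˣ => Matrix.fromBlocks (Algebra.leftMulMatrix b (x : K)) 0 0
        (Algebra.leftMulMatrix b ((x⁻¹ : Kˣ) : K))
      map_one' := by simp
      map_mul' := fun x y => by simp [Matrix.fromBlocks_multiply, mul_comm] }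
  have hψ : ∀ x, (ψ x).1 = Matrix.fromBlocks (Algebra.leftMulMatrix b (x : K)) 0 0
      (Algebra.leftMulMatrix b ((x⁻¹ : Kˣ) : K)) := fun x => rfl
  have hmem : ∀ x, ψ x ∈ pres G := fun x => by
    rw [mem_pres, hψ, hG]
    simp only [Matrix.fromBlocks_transpose, Matrix.fromBlocks_multiply, transpose_zero, Matrix.zero_mul,
      Matrix.mul_zero, add_zero, zero_add]
    rw [← hmove, ← hmove, Matrix.mul_assoc, Matrix.mul_assoc, ← map_mul, ← map_mul, Units.mul_inv, Units.inv_mul]
    simp
  have hinj : Function.Injective ψ := fun x y h => Units.ext (Algebra.leftMulMatrix_injective b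
    (Matrix.fromBlocks_inj.1 (congrArg Units.val h)).1)
  have hdet : G.det = (-1) ^ w * (T.det * T.det) := by
    have e : G = Matrix.fromBlocks T 0 0 T * (Matrix.J (Fin w) F * Matrix.fromBlocks 1 0 0 (-1)) := by
      simp [hG, Matrix.J, Matrix.fromBlocks_multiply]
    rw [e, Matrix.det_mul, Matrix.det_mul, det_J, one_mul, Matrix.det_fromBlocks_zero₁₂, Matrix.det_fromBlocks_zero₁₂,
      Matrix.det_one, one_mul, Matrix.det_neg, Matrix.det_one, mul_one, Fintype.card_fin]
    ring
  have hGu : IsUnit G.det := by rw [hdet]; exact ((isUnit_one.neg).pow _).mul (hT.mul hT)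
  have hGs : Gᵀ = G := by simp [hG, Matrix.fromBlocks_transpose, hTs]
  have hpl : Pl w G := ⟨T.det, by
    rw [hdet, ← mul_assoc, ← mul_pow, neg_one_mul, neg_neg, one_pow, one_mul]⟩
  have hord : orderOf (⟨ψ l, hmem l⟩ : ↥(pres G)) = Nat.card F ^ w - 1 := by
    rw [← orderOf_val, orderOf_injective ψ hinj, hlo]
  have hE2 : 2 ∣ Nat.card F ^ w - 1 := even_iff_two_dvd.1 (Nat.Odd.sub_odd hodd odd_one)
  have hEpos : 0 < Nat.card F ^ w - 1 := by
    have := Nat.one_lt_pow (show w ≠ 0 by omega) (Finite.one_lt_card (α := F))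
    omega
  refine ⟨Fin w ⊕ Fin w, inferInstance, inferInstance, G, ⟨ψ l, hmem l⟩, by simp; omega, hGs, hGu,
    iff_of_true hpl rfl, ?_, ?_, hord⟩
  · show (ψ l).1.det = 1
    rw [hψ, Matrix.det_fromBlocks_zero₁₂, ← Matrix.det_mul, ← map_mul, Units.mul_inv, map_one, Matrix.det_one]
  · refine not_mem_of_half h2 hGs hGu (by simp; omega) _ hE2 hEpos ((odd_card h2).pow)
      ((lev_eq h2 hGs hGu hw (by simp; omega)).1 hpl) ?_
    show (ψ l).1 ^ _ = -1
    have h1 : (l : K) ^ ((Nat.card F ^ w - 1) / 2) = -1 := by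
      refine (mul_self_eq_one_iff.1 ?_).resolve_left fun h => ?_
      · rw [← pow_add, ← two_mul, Nat.mul_div_cancel' hE2, ← hlo, ← Units.val_pow_eq_pow_val, pow_orderOf_eq_one,
          Units.val_one]
      · have := Nat.le_of_dvd (by omega) (orderOf_dvd_of_pow_eq_one (Units.ext (by simpa using h) :
          l ^ ((Nat.card F ^ w - 1) / 2) = 1))
        omega
    have h1' : ((l⁻¹ : Kˣ) : K) ^ ((Nat.card F ^ w - 1) / 2) = -1 := by
      rw [Units.val_inv_eq_inv_val, inv_pow, h1, inv_neg, inv_one]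
    rw [← Units.val_pow_eq_pow_val, ← map_pow, hψ, Units.val_pow_eq_pow_val, ← inv_pow, Units.val_pow_eq_pow_val, h1,
      h1', map_neg, map_one, ← Matrix.fromBlocks_one, Matrix.fromBlocks_neg]
    simp

theorem exists_full_minus (h2 : (2 : F) ≠ 0) (w : ℕ) (hw : 1 ≤ w) : Full F w false (Nat.card F ^ w + 1) := by
  obtain ⟨p, hp⟩ := CharP.exists F
  have : Fact p.Prime := ⟨CharP.char_is_prime F p⟩
  have : NeZero (2 * w) := ⟨by omega⟩
  let K := FiniteField.Extension F p (2 * w)
  have : Finite K := Nat.finite_of_card_ne_zero (by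
    rw [FiniteField.natCard_extension]; exact pow_ne_zero _ Nat.card_pos.ne')
  have : Fintype K := Fintype.ofFinite K
  let b := (Module.finBasis F K).reindex (finCongr (FiniteField.finrank_extension F p (2 * w)))
  obtain ⟨q, hq⟩ : ∃ q, q = Nat.card F := ⟨_, rfl⟩
  have hcK : Nat.card K = q ^ (2 * w) := hq ▸ FiniteField.natCard_extension F p (2 * w)
  let fr : K →ₐ[F] K := FiniteField.frobeniusAlgHom F K
  have hfr : ∀ z : K, fr z = z ^ q := fun z => by
    rw [hq, Nat.card_eq_fintype_card]; rfl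
  have hfrp : ∀ (j : ℕ) (z : K), (fr ^ j) z = z ^ q ^ j := fun j => by
    induction j with
    | zero => intro z; simp
    | succ j ih => intro z; rw [pow_succ, AlgHom.mul_apply, ih, hfr, ← pow_mul, ← pow_succ']
  let σ : K ≃ₐ[F] K := AlgEquiv.ofBijective (fr ^ w) (fr ^ w).bijective
  have hσ : ∀ z : K, σ z = z ^ q ^ w := hfrp w
  have hσσ : ∀ z : K, σ (σ z) = z := fun z => by
    rw [hσ, hσ, ← pow_mul, ← pow_add, ← two_mul, ← hcK, Nat.card_eq_fintype_card]
    exact FiniteField.pow_card z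
  have hqw : 2 ≤ q ^ w := (hq ▸ Finite.one_lt_card : 1 < q).trans_le (Nat.le_self_pow (by omega) q)
  obtain ⟨l₀, hl₀⟩ := IsCyclic.exists_generator (α := Kˣ)
  obtain ⟨l, hl, hldef⟩ : ∃ l : Kˣ, orderOf l = q ^ w + 1 ∧ l = l₀ ^ (q ^ w - 1) := by
    refine ⟨_, ?_, rfl⟩
    have h : orderOf l₀ = (q ^ w + 1) * (q ^ w - 1) := by
      rw [orderOf_eq_card_of_forall_mem_zpowers hl₀, Nat.card_units, hcK, ← Nat.sq_sub_sq, one_pow, ← pow_mul,
        mul_comm 2 w]
    rw [orderOf_pow_of_dvd (by omega) (h ▸ dvd_mul_left _ _), h, Nat.mul_div_cancel _ (by omega)]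
  have hlσ : (l : K) * σ l = 1 := by
    rw [hσ, ← pow_succ', ← Units.val_pow_eq_pow_val, ← hl, pow_orderOf_eq_one, Units.val_one]
  obtain ⟨S, hS⟩ : ∃ S, S = LinearMap.toMatrix b b σ.toLinearMap := ⟨_, rfl⟩
  obtain ⟨T, hT⟩ : ∃ T, T = Algebra.traceMatrix F b := ⟨_, rfl⟩
  have hTu : IsUnit T.det := hT ▸ CfsgLib.Symp.isUnit_traceMatrix b
  obtain ⟨G, hG⟩ : ∃ G, G = T * S := ⟨_, rfl⟩
  have hGe : ∀ i j, G i j = Algebra.trace F K (b i * σ (b j)) := fun i j => by
    rw [hG, Matrix.mul_apply]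
    conv_rhs => rw [← b.sum_repr (σ (b j)), Finset.mul_sum, map_sum]
    refine Finset.sum_congr rfl fun k _ => ?_
    rw [mul_smul_comm, map_smul, smul_eq_mul, hS, LinearMap.toMatrix_apply, hT, Algebra.traceMatrix_apply,
      Algebra.traceForm_apply, mul_comm]
    rfl
  have hGs : Gᵀ = G := by
    ext i j
    rw [Matrix.transpose_apply, hGe, hGe, ← Algebra.trace_eq_of_algEquiv σ, map_mul, hσσ]
    exact congrArg _ (mul_comm _ _)
  have hSS : S * S = 1 := by
    rw [hS, ← LinearMap.toMatrix_comp b b b, ← LinearMap.toMatrix_id b]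
    exact congrArg _ (LinearMap.ext hσσ)
  have hGu : IsUnit G.det := by
    rw [hG, Matrix.det_mul]
    refine hTu.mul (IsUnit.of_mul_eq_one S.det ?_)
    rw [← Matrix.det_mul, hSS, Matrix.det_one]
  let ψ : Kˣ →* GL (Fin (2 * w)) F := Units.map (Algebra.leftMulMatrix b : K →* Matrix (Fin (2 * w)) (Fin (2 * w)) F)
  have hψ : ∀ x, (ψ x).1 = Algebra.leftMulMatrix b (x : K) := fun x => rfl
  have hcomm : ∀ x : K, T * Algebra.leftMulMatrix b x = (Algebra.leftMulMatrix b x)ᵀ * T := fun x => by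
    have h : ∀ i k, (T * Algebra.leftMulMatrix b x) i k = Algebra.trace F K (b i * (x * b k)) := by
      intro i k
      have h : x * b k = ∑ j, Algebra.leftMulMatrix b x j k • b j := by
        simp only [Algebra.leftMulMatrix_eq_repr_mul]
        exact (b.sum_repr (x * b k)).symm
      rw [h, Finset.mul_sum, map_sum, Matrix.mul_apply]
      refine Finset.sum_congr rfl fun j _ => ?_
      rw [hT, mul_smul_comm, map_smul, smul_eq_mul, mul_comm, Algebra.traceMatrix_apply, Algebra.traceForm_apply]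
    have hTs : Tᵀ = T := by
      ext i j
      rw [hT, Matrix.transpose_apply, Algebra.traceMatrix_apply, Algebra.traceMatrix_apply, Algebra.traceForm_apply,
        Algebra.traceForm_apply]
      exact congrArg _ (mul_comm _ _)
    ext i k
    rw [show ((Algebra.leftMulMatrix b x)ᵀ * T) i k = (T * Algebra.leftMulMatrix b x) k i by
        rw [← Matrix.transpose_apply (T * Algebra.leftMulMatrix b x), Matrix.transpose_mul, hTs], h, h]
    exact congrArg _ (by ring)
  have hmem : ψ l ∈ pres G := by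
    rw [mem_pres, hψ, hG, ← Matrix.mul_assoc, ← hcomm, Matrix.mul_assoc, Matrix.mul_assoc]
    congr 1
    rw [hS, ← Algebra.toMatrix_lmul_eq, ← LinearMap.toMatrix_comp b b b, ← LinearMap.toMatrix_comp b b b]
    refine congrArg _ (LinearMap.ext fun z => ?_)
    show (l : K) * σ ((l : K) * z) = σ z
    rw [map_mul, ← mul_assoc, hlσ, one_mul]
  have hinj : Function.Injective ψ := fun x y h => Units.ext (Algebra.leftMulMatrix_injective b (congrArg Units.val h))
  have hord : orderOf (⟨ψ l, hmem⟩ : ↥(pres G)) = q ^ w + 1 := by rw [← orderOf_val, orderOf_injective ψ hinj, hl]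
  have hodd : Odd (q ^ w) := (hq ▸ odd_card h2).pow
  have hE2 : 2 ∣ q ^ w + 1 := even_iff_two_dvd.1 hodd.add_one
  have hfree : ∀ i, 1 ≤ i → i < q ^ w + 1 → ∀ v, ((⟨ψ l, hmem⟩ : ↥(pres G)) ^ i).1.1 *ᵥ v = v → v = 0 := by
    intro i h1 hi v hv
    rw [SubgroupClass.coe_pow, ← map_pow, hψ] at hv
    have hne : ((l ^ i : Kˣ) : K) - 1 ≠ 0 := fun h => by
      have := Nat.le_of_dvd (by omega) (orderOf_dvd_of_pow_eq_one (Units.ext (sub_eq_zero.1 h) : l ^ i = 1))
      omega
    have hv' : Algebra.leftMulMatrix b (((l ^ i : Kˣ) : K) - 1) *ᵥ v = 0 := by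
      rw [map_sub, map_one, Matrix.sub_mulVec, Matrix.one_mulVec, hv, sub_self]
    have h := congrArg (Algebra.leftMulMatrix b (((l ^ i : Kˣ) : K) - 1)⁻¹ *ᵥ ·) hv'
    simp only [Matrix.mulVec_mulVec, ← map_mul, inv_mul_cancel₀ hne, map_one, Matrix.one_mulVec,
      Matrix.mulVec_zero] at h
    exact h
  have hlev := lev_eq h2 hGs hGu hw (Fintype.card_fin _)
  rw [← hq] at hlev
  have hpl : ¬ Pl w G := fun hpl => by
    have hd := dvd_lev h2 hGs _ (by omega) (by rw [← hord]; exact pow_orderOf_eq_one _) hfree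
    rw [hlev.1 hpl] at hd
    have hcop : Nat.Coprime (q ^ w + 1) (q ^ (w - 1)) := by
      have h : Nat.Coprime (q ^ w + 1) (q ^ w) := by simp
      exact Nat.Coprime.coprime_dvd_right (pow_dvd_pow _ (Nat.sub_le _ _)) h
    have := Nat.le_of_dvd (by omega) (hcop.dvd_of_dvd_mul_left hd)
    omega
  refine ⟨Fin (2 * w), inferInstance, inferInstance, G, ⟨ψ l, hmem⟩, Fintype.card_fin _, hGs, hGu,
    iff_of_false hpl (by simp), ?_, ?_, hq ▸ hord⟩
  · show (ψ l).1.det = 1
    rw [hψ, ← Algebra.norm_eq_matrix_det]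
    apply (algebraMap F K).injective
    have hsum : ∀ n : ℕ, n = w + w → ∑ i ∈ Finset.range n, q ^ i = (q ^ w + 1) * ∑ i ∈ Finset.range w, q ^ i := by
      rintro n rfl
      rw [Finset.sum_range_add, show ∑ i ∈ Finset.range w, q ^ (w + i) = q ^ w * ∑ i ∈ Finset.range w, q ^ i by
        simp only [pow_add, Finset.mul_sum]]
      ring
    rw [FiniteField.algebraMap_norm_eq_pow_sum, FiniteField.finrank_extension, map_one, ← hq,
      ← Units.val_pow_eq_pow_val, hsum _ (two_mul w), pow_mul, ← hl, pow_orderOf_eq_one, one_pow, Units.val_one]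
  · refine not_mem_of_half h2 hGs hGu (by simp; omega) _ hE2 (by omega) ((hq ▸ odd_card h2).pow)
      (hlev.2 hpl) ?_
    show (ψ l).1 ^ _ = -1
    have h1 : (l : K) ^ ((q ^ w + 1) / 2) = -1 := by
      refine (mul_self_eq_one_iff.1 ?_).resolve_left fun h => ?_
      · rw [← pow_add, ← two_mul, Nat.mul_div_cancel' hE2, ← hl, ← Units.val_pow_eq_pow_val, pow_orderOf_eq_one,
          Units.val_one]
      · have := Nat.le_of_dvd (by omega) (orderOf_dvd_of_pow_eq_one (Units.ext (by simpa using h) :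
          l ^ ((q ^ w + 1) / 2) = 1))
        omega
    rw [← Units.val_pow_eq_pow_val, ← map_pow, hψ, Units.val_pow_eq_pow_val, h1, map_neg, map_one]

/-- The sum of powers in characteristic `p`. -/
theorem geom_pred {R : Type*} [Ring R] [Algebra F R] (p : ℕ) [Fact p.Prime] [CharP F p] (u : R) (j : ℕ) :
    ∑ i ∈ Finset.range (p ^ j), u ^ i = (u - 1) ^ (p ^ j - 1) := by
  have h : (∑ i ∈ Finset.range (p ^ j), (Polynomial.X : Polynomial F) ^ i) = (Polynomial.X - 1) ^ (p ^ j - 1) := by
    refine mul_right_cancel₀ (sub_ne_zero.2 (Polynomial.X_ne_C _) : (Polynomial.X : Polynomial F) - Polynomial.C 1 ≠ 0) ?_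
    rw [map_one, geom_sum_mul, ← pow_succ, Nat.sub_add_cancel (Nat.one_le_pow _ _ (Fact.out : p.Prime).pos),
      sub_pow_char_pow, one_pow]
  simpa using congrArg (Polynomial.aeval u) h

theorem sum_pow_mul {R : Type*} [Ring R] {u : R} {n : ℕ} (hu : u ^ n = 1) : ∀ r : ℕ,
    ∑ i ∈ Finset.range (r * n), u ^ i = r • ∑ i ∈ Finset.range n, u ^ i
  | 0 => by simp
  | r + 1 => by
    rw [Nat.succ_mul, Finset.sum_range_add, sum_pow_mul hu r, succ_nsmul]
    congr 1
    refine Finset.sum_congr rfl fun i _ => ?_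
    rw [pow_add, Nat.mul_comm, pow_mul, hu, one_pow, one_mul]

/-- A regular unipotent element in odd dimension. -/
theorem exists_regular (h2 : (2 : F) ≠ 0) (p : ℕ) [Fact p.Prime] [CharP F p] {D : ℕ} (hD : Odd D) :
    ∃ (G : Matrix (Fin D) (Fin D) F) (u : ↥(pres G)), Gᵀ = G ∧ IsUnit G.det ∧
      (∀ k, (u.1.1 - 1) ^ k = 0 ↔ D ≤ k) ∧ ∀ j, u ^ p ^ j = 1 ↔ D ≤ p ^ j := by
  have : Nonempty (Fin D) := ⟨⟨0, hD.pos⟩⟩
  let N : Matrix (Fin D) (Fin D) F := Matrix.of fun i j => if j.val = i.val + 1 then 1 else 0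
  let G : Matrix (Fin D) (Fin D) F := Matrix.of fun i j => if i.val + j.val = D - 1 then (-1) ^ i.val else 0
  have hN : ∀ k i j, (N ^ k) i j = if j.val = i.val + k then 1 else 0 := by
    intro k
    induction k with
    | zero => intro i j; rw [pow_zero, Matrix.one_apply]; simp [Fin.ext_iff, eq_comm]
    | succ k ih =>
      intro i j
      rw [pow_succ, Matrix.mul_apply]
      by_cases hk : i.val + k < D
      · rw [Finset.sum_eq_single (⟨i.val + k, hk⟩ : Fin D)]
        · simp [ih, N, Matrix.of_apply, add_assoc]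
        · intro l _ hl
          rw [ih, if_neg (fun h => hl (Fin.ext h)), zero_mul]
        · simp
      · rw [Finset.sum_eq_zero]
        · rw [if_neg]; have := j.isLt; omega
        · intro l _
          rw [ih, if_neg (fun h => by have := l.isLt; omega), zero_mul]
  have hN0 : ∀ k, N ^ k = 0 ↔ D ≤ k := fun k => by
    constructor
    · intro h
      by_contra hk
      have := congrFun (congrFun h ⟨0, hD.pos⟩) ⟨k, by omega⟩
      rw [hN, if_pos (by simp), Matrix.zero_apply] at this
      exact one_ne_zero this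
    · intro hk
      ext i j
      rw [hN, if_neg (by have := j.isLt; omega), Matrix.zero_apply]
  have hGs : Gᵀ = G := by
    ext i j
    simp only [G, Matrix.transpose_apply, Matrix.of_apply]
    by_cases h : i.val + j.val = D - 1
    · rw [if_pos h, if_pos (by omega)]
      obtain ⟨d, rfl⟩ := hD
      rw [show i.val = 2 * d - j.val by omega, neg_one_pow_eq_pow_mod_two, neg_one_pow_eq_pow_mod_two (2 * d - j.val)]
      congr 1
      omega
    · rw [if_neg h, if_neg (by omega)]
  have hGu : IsUnit G.det := by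
    refine isUnit_iff_ne_zero.2 fun h0 => ?_
    obtain ⟨v, hv0, hv⟩ := Matrix.exists_mulVec_eq_zero_iff.mpr h0
    refine hv0 (funext fun j => ?_)
    have h := congrFun hv ⟨D - 1 - j.val, by omega⟩
    rw [Matrix.mulVec, dotProduct, Finset.sum_eq_single j] at h
    · simp only [G, Matrix.of_apply, Pi.zero_apply] at h
      rw [if_pos (by omega)] at h
      exact (mul_eq_zero.1 h).resolve_left (pow_ne_zero _ (neg_ne_zero.2 one_ne_zero))
    · intro l _ hl
      simp only [G, Matrix.of_apply]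
      rw [if_neg (fun h' => hl (Fin.ext (by omega))), zero_mul]
    · simp
  have hskew : Nᵀ * G + G * N = 0 := by
    ext i j
    rw [Matrix.add_apply, Matrix.mul_apply, Matrix.mul_apply, Matrix.zero_apply]
    simp only [N, G, Matrix.transpose_apply, Matrix.of_apply]
    rw [Finset.sum_congr (s₁ := Finset.univ) (g := fun k : Fin D =>
      if i.val = k.val + 1 then (if k.val + j.val = D - 1 then (-1 : F) ^ k.val else 0) else 0) rfl
        (fun k _ => by split_ifs <;> simp)]
    simp only [mul_ite, mul_zero, mul_one]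
    have e1 : (∑ k : Fin D, if i.val = k.val + 1 then (if k.val + j.val = D - 1 then (-1 : F) ^ k.val else 0) else 0) =
        if 1 ≤ i.val ∧ i.val + j.val = D then (-1) ^ (i.val - 1) else 0 := by
      by_cases hi : 1 ≤ i.val
      · rw [Finset.sum_eq_single (⟨i.val - 1, by omega⟩ : Fin D)]
        · simp only
          rw [if_pos (by omega)]
          exact if_congr ⟨fun h => ⟨hi, by omega⟩, fun h => by omega⟩ rfl rfl
        · intro l _ hl; rw [if_neg (fun h => hl (Fin.ext (by simp; omega)))]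
        · simp
      · rw [if_neg (by omega), Finset.sum_eq_zero]
        intro l _; rw [if_neg (by omega)]
    have e2 : (∑ k : Fin D, if j.val = k.val + 1 then (if i.val + k.val = D - 1 then (-1 : F) ^ i.val else 0) else 0) =
        if 1 ≤ j.val ∧ i.val + j.val = D then (-1) ^ i.val else 0 := by
      by_cases hj : 1 ≤ j.val
      · rw [Finset.sum_eq_single (⟨j.val - 1, by omega⟩ : Fin D)]
        · simp only
          rw [if_pos (by omega)]
          exact if_congr ⟨fun h => ⟨hj, by omega⟩, fun h => by omega⟩ rfl rfl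
        · intro l _ hl; rw [if_neg (fun h => hl (Fin.ext (by simp; omega)))]
        · simp
      · rw [if_neg (by omega), Finset.sum_eq_zero]
        intro l _; rw [if_neg (by omega)]
    rw [e1, e2]
    have := i.isLt; have := j.isLt
    by_cases h : i.val + j.val = D
    · rw [if_pos ⟨by omega, h⟩, if_pos ⟨by omega, h⟩]
      obtain ⟨d, hd⟩ : ∃ d, i.val = d + 1 := ⟨i.val - 1, by omega⟩
      rw [hd, Nat.add_sub_cancel, pow_succ]; ring
    · rw [if_neg (fun h' => h h'.2), if_neg (fun h' => h h'.2), add_zero]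
  have hnil : IsNilpotent N := ⟨D, (hN0 D).2 le_rfl⟩
  obtain ⟨V, hV⟩ : ∃ V : GL (Fin D) F, V.1 = 1 - N := ⟨hnil.isUnit_one_sub.unit, IsUnit.unit_spec _⟩
  obtain ⟨U, hU⟩ : ∃ U : GL (Fin D) F, U.1 = 1 + N := ⟨hnil.isUnit_one_add.unit, IsUnit.unit_spec _⟩
  have hUV : U.1ᵀ * G * U.1 = V.1ᵀ * G * V.1 := by
    have h : Nᵀ * G = -(G * N) := eq_neg_of_add_eq_zero_left hskew
    rw [hU, hV]
    simp only [transpose_add, transpose_sub, transpose_one, Matrix.add_mul, Matrix.sub_mul, Matrix.mul_add,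
      Matrix.mul_sub, Matrix.one_mul, Matrix.mul_one, h, Matrix.neg_mul, Matrix.mul_neg]
    abel
  have hmem : U * V⁻¹ ∈ pres G := by
    rw [mem_pres, Units.val_mul]
    calc _ = V⁻¹.1ᵀ * (U.1ᵀ * G * U.1) * V⁻¹.1 := by simp only [transpose_mul, Matrix.mul_assoc]
      _ = (V.1 * V⁻¹.1)ᵀ * G * (V.1 * V⁻¹.1) := by rw [hUV]; simp only [transpose_mul, Matrix.mul_assoc]
      _ = G := by rw [← Units.val_mul, mul_inv_cancel, Units.val_one, transpose_one, Matrix.one_mul, Matrix.mul_one]
  have hsub : (U * V⁻¹).1 - 1 = (2 : F) • (N * V⁻¹.1) := by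
    rw [Units.val_mul, hU]
    have h1 : V.1 * V⁻¹.1 = 1 := by rw [← Units.val_mul, mul_inv_cancel, Units.val_one]
    conv_lhs => arg 2; rw [← h1, hV]
    rw [← Matrix.sub_mul, show (1 + N) - (1 - N) = (2 : F) • N by rw [two_smul]; abel, Matrix.smul_mul]
  have hc : Commute N V⁻¹.1 := by
    have : Commute N V.1 := by rw [hV]; exact (Commute.one_right N).sub_right (Commute.refl N)
    exact this.units_inv_right
  have hnil' : ∀ k, ((U * V⁻¹).1 - 1) ^ k = 0 ↔ D ≤ k := fun k => by
    rw [← hN0, hsub, smul_pow, hc.mul_pow, smul_eq_zero_iff_right (pow_ne_zero _ h2), ← Units.val_pow_eq_pow_val,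
      Units.mul_left_eq_zero]
  refine ⟨G, ⟨U * V⁻¹, hmem⟩, hGs, hGu, hnil', fun j => ?_⟩
  rw [← hnil', sub_pow_char_pow_of_commute p j (Commute.one_right _), one_pow, sub_eq_zero,
    ← Units.val_pow_eq_pow_val]
  exact ⟨fun h => (congrArg (fun u : ↥(pres G) => u.1.1) h :), fun h => Subtype.ext (Units.ext h)⟩

end CfsgLib.SpecNine
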